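import Mathlib.LinearAlgebra.GeneralLinearGroup.Basic
import Mathlib.Data.ZMod.Basic
import Mathlib.Algebra.Module.Equiv.Basic
import Cfsg.Agent.H123.Cls.Pop
import Cfsg.Agent.H123.Cls.ListCover_m3
import Mathlib.Algebra.BigOperators.Fin
import Mathlib.Tactic.LinearCombination
import Mathlib.LinearAlgebra.FiniteDimensional.Basic
import Cfsg.Agent.Prune
set_option linter.all false
prune_inst 0x7f00000000000000000000000000000000000000000000000000000000000000000000000000000000000000000000000000000000000000000000000000000000000000000000000000000000000000003fffffffffffffffffffffffffffbeffbdffffffff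
open scoped Cfsg.Agent.FastGrp

-- part: H651/O9/Defs
section
/-!
# The orthogonal group in dimension 9 over the field with three elements (helper651)

`B` is the symmetric bilinear form with four hyperbolic planes and a vector of norm one, `OB` its isometry group.
-/

set_option autoImplicit false

namespace Cfsg.Agent.H651.O9

/-- the space -/
abbrev V : Type := Fin 9 → ZMod 3

/-- the form -/
def B (x y : V) : ZMod 3 :=
  x 0 * y 1 + x 1 * y 0 + x 2 * y 3 + x 3 * y 2 + x 4 * y 5 + x 5 * y 4 + x 6 * y 7 + x 7 * y 6 + x 8 * y 8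

/-- the isometry group -/
def OB : Subgroup (V ≃ₗ[ZMod 3] V) where
  carrier := {a | ∀ x y, B (a x) (a y) = B x y}
  mul_mem' := by
    intro a b ha hb x y
    rw [LinearEquiv.mul_apply, LinearEquiv.mul_apply, ha, hb]
  one_mem' := fun x y => rfl
  inv_mem' := by
    intro a ha x y
    have h := ha (a⁻¹ x) (a⁻¹ y)
    have e : ∀ z, a (a⁻¹ z) = z := fun z => LinearEquiv.apply_symm_apply a z
    rw [e, e] at h
    exact h.symm

theorem mem_OB {a : V ≃ₗ[ZMod 3] V} : a ∈ OB ↔ ∀ x y, B (a x) (a y) = B x y := Iff.rfl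

end Cfsg.Agent.H651.O9
end

-- part: H651/O9/Eng
section
/-!
# Functions on `F_3 ^ 9` as pairs of bit masks (helper651)

A function `V → ZMod 3` is given by two masks with `3 ^ 9` bits: the vectors with value `1` and the vectors with value `2`.
-/

set_option autoImplicit false
set_option exponentiation.threshold 30000

namespace Cfsg.Agent.H651.O9

open Cfsg.Agent.H123.Cls (cnd cnd_true cnd_false band band_eq fB fB_eq allN allN_iff)
open Cfsg.Agent.Lib.BitNetSimple (force force_eq tb tb_eq)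

/-! ### the index of a vector -/

/-- the bijection -/
def E : V ≃ Fin (3 ^ 9) := finFunctionFinEquiv

/-- the index -/
def ix (w : V) : ℕ := (E w : ℕ)

theorem ix_lt (w : V) : ix w < 19683 := (E w).2

theorem ix_inj {w w' : V} (h : ix w = ix w') : w = w' := E.injective (Fin.ext h)

/-- the vector with index `e` -/
def vec (e : ℕ) : V := E.symm ⟨e % 3 ^ 9, Nat.mod_lt _ (by norm_num)⟩

theorem ix_vec {e : ℕ} (h : e < 19683) : ix (vec e) = e := by
  rw [ix, vec, Equiv.apply_symm_apply]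
  exact Nat.mod_eq_of_lt h

theorem digit (w : V) (i : Fin 9) : ix w / 3 ^ (i : ℕ) % 3 = (w i).val := by
  have h : E.symm (E w) i = w i := by rw [Equiv.symm_apply_apply]
  have h2 : ((E.symm (E w) i : ZMod 3) : ZMod 3).val = (E w : ℕ) / 3 ^ (i : ℕ) % 3 := rfl
  rw [← h, h2]
  rfl

theorem vec_digit {e : ℕ} (h : e < 19683) (i : Fin 9) : ((vec e) i).val = e / 3 ^ (i : ℕ) % 3 := by
  rw [← digit, ix_vec h]

theorem ix_zero : ix 0 = 0 := by
  have h : vec 0 = 0 := by
    funext i
    have h1 := vec_digit (e := 0) (by norm_num) i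
    rw [Nat.zero_div, Nat.zero_mod] at h1
    exact (ZMod.val_eq_zero _).1 h1
  rw [← h]
  exact ix_vec (by norm_num)

/-! ### masks -/

/-- the masks describe the function -/
def Rf (p : ℕ × ℕ) (f : V → ZMod 3) : Prop :=
  ∀ w, p.1.testBit (ix w) = decide (f w = 1) ∧ p.2.testBit (ix w) = decide (f w = 2)

theorem Rf.congr {p : ℕ × ℕ} {f g : V → ZMod 3} (h : Rf p f) (e : ∀ w, f w = g w) : Rf p g := by
  intro w
  rw [← e w]
  exact h w

theorem Rf.ext {p : ℕ × ℕ} {f g : V → ZMod 3} (hf : Rf p f) (hg : Rf p g) (w : V) : f w = g w := by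
  have h1 := (hf w).1.symm.trans (hg w).1
  have h2 := (hf w).2.symm.trans (hg w).2
  generalize f w = a at *
  generalize g w = b at *
  revert h1 h2
  revert a b
  decide

theorem rf_zero : Rf (0, 0) (fun _ => 0) := by
  intro w
  have k1 : false = decide ((0 : ZMod 3) = 1) := by decide
  have k2 : false = decide ((0 : ZMod 3) = 2) := by decide
  exact ⟨(Nat.zero_testBit _).trans k1, (Nat.zero_testBit _).trans k2⟩

theorem key_add : ∀ a b : ZMod 3,
    ((decide (a = 2) || decide (b = 2)) ^^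
          ((decide (a = 1) || decide (b = 2)) ^^ (decide (b = 1) || decide (a = 2)))) =
        decide (a + b = 1) ∧
      ((decide (a = 1) || decide (b = 1)) ^^
          ((decide (a = 1) || decide (b = 2)) ^^ (decide (b = 1) || decide (a = 2)))) =
        decide (a + b = 2) := by decide

theorem key_mul : ∀ a b : ZMod 3,
    (decide (a = 1) && decide (b = 1) || decide (a = 2) && decide (b = 2)) = decide (a * b = 1) ∧
      (decide (a = 1) && decide (b = 2) || decide (a = 2) && decide (b = 1)) = decide (a * b = 2) := by decide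

theorem key_neg : ∀ a : ZMod 3, decide (a = 2) = decide (2 * a = 1) ∧ decide (a = 1) = decide (2 * a = 2) := by
  decide

/-- addition -/
def addM (p q : ℕ × ℕ) : ℕ × ℕ :=
  ((p.2 ||| q.2) ^^^ ((p.1 ||| q.2) ^^^ (q.1 ||| p.2)), (p.1 ||| q.1) ^^^ ((p.1 ||| q.2) ^^^ (q.1 ||| p.2)))

theorem Rf.add {p q : ℕ × ℕ} {f g : V → ZMod 3} (hf : Rf p f) (hg : Rf q g) : Rf (addM p q) (fun w => f w + g w) := by
  intro w
  obtain ⟨h1, h2⟩ := hf w
  obtain ⟨h3, h4⟩ := hg w
  simp only [addM, Nat.testBit_or, Nat.testBit_xor, h1, h2, h3, h4]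
  exact key_add _ _

/-- multiplication -/
def mulM (p q : ℕ × ℕ) : ℕ × ℕ := ((p.1 &&& q.1) ||| (p.2 &&& q.2), (p.1 &&& q.2) ||| (p.2 &&& q.1))

theorem Rf.mul {p q : ℕ × ℕ} {f g : V → ZMod 3} (hf : Rf p f) (hg : Rf q g) : Rf (mulM p q) (fun w => f w * g w) := by
  intro w
  obtain ⟨h1, h2⟩ := hf w
  obtain ⟨h3, h4⟩ := hg w
  simp only [mulM, Nat.testBit_or, Nat.testBit_and, h1, h2, h3, h4]
  exact key_mul _ _

theorem Rf.neg {p : ℕ × ℕ} {f : V → ZMod 3} (hf : Rf p f) : Rf (p.2, p.1) (fun w => 2 * f w) := by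
  intro w
  obtain ⟨h1, h2⟩ := hf w
  simp only [h1, h2]
  exact key_neg _

/-- strict addition -/
noncomputable def addF {α : Type} (a b c d : ℕ) (κ : ℕ → ℕ → α) : α :=
  fB (Nat.xor (Nat.lor a d) (Nat.lor c b)) fun t => fB (Nat.xor (Nat.lor b d) t) fun r =>
    fB (Nat.xor (Nat.lor a c) t) fun s => κ r s

theorem addF_eq {α : Type} (p q : ℕ × ℕ) (κ : ℕ → ℕ → α) :
    addF p.1 p.2 q.1 q.2 κ = κ (addM p q).1 (addM p q).2 := by
  rw [addF, fB_eq, fB_eq, fB_eq]
  rfl

/-- strict multiplication -/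
noncomputable def mulF {α : Type} (a b c d : ℕ) (κ : ℕ → ℕ → α) : α :=
  fB (Nat.lor (Nat.land a c) (Nat.land b d)) fun r => fB (Nat.lor (Nat.land a d) (Nat.land b c)) fun s => κ r s

theorem mulF_eq {α : Type} (p q : ℕ × ℕ) (κ : ℕ → ℕ → α) :
    mulF p.1 p.2 q.1 q.2 κ = κ (mulM p q).1 (mulM p q).2 := by
  rw [mulF, fB_eq, fB_eq]
  rfl

/-- the coefficient given by a digit -/
def cz (c : ℕ) : ZMod 3 := bif Nat.beq c 0 then 0 else bif Nat.beq c 1 then 1 else 2

/-- linear combinations -/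
def lc : List ℕ → List (ℕ × ℕ) → ℕ × ℕ → ℕ × ℕ
  | c :: cs, f :: fs, a => lc cs fs (bif Nat.beq c 0 then a else bif Nat.beq c 1 then addM a f else addM a (f.2, f.1))
  | _, _, a => a

/-- strict version -/
noncomputable def lcF {α : Type} (cs : List ℕ) : List (ℕ × ℕ) → ℕ → ℕ → (ℕ → ℕ → α) → α :=
  List.rec (fun _ a b κ => κ a b) (fun c _ ih fs => List.rec (fun a b κ => κ a b) (fun f fs' _ a b κ =>
    cnd (Nat.beq c 0) (ih fs' a b κ) (cnd (Nat.beq c 1) (addF a b f.1 f.2 fun r s => ih fs' r s κ)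
      (addF a b f.2 f.1 fun r s => ih fs' r s κ))) fs) cs

theorem lcF_eq {α : Type} : ∀ (cs : List ℕ) (fs : List (ℕ × ℕ)) (a : ℕ × ℕ) (κ : ℕ → ℕ → α),
    lcF cs fs a.1 a.2 κ = κ (lc cs fs a).1 (lc cs fs a).2
  | [], fs, a, κ => by
    have e : lc [] fs a = a := by cases fs <;> rfl
    rw [e]; rfl
  | c :: cs, [], a, κ => rfl
  | c :: cs, f :: fs, a, κ => by
    have e : lcF (c :: cs) (f :: fs) a.1 a.2 κ = cnd (Nat.beq c 0) (lcF cs fs a.1 a.2 κ)
      (cnd (Nat.beq c 1) (addF a.1 a.2 f.1 f.2 fun r s => lcF cs fs r s κ)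
        (addF a.1 a.2 f.2 f.1 fun r s => lcF cs fs r s κ)) := rfl
    rw [e, lc]
    cases Nat.beq c 0
    · rw [cnd_false, cond_false]
      cases Nat.beq c 1
      · rw [cnd_false, cond_false]
        have h := addF_eq a (f.2, f.1) (fun r s => lcF cs fs r s κ)
        rw [h, lcF_eq cs fs]
      · rw [cnd_true, cond_true]
        have h := addF_eq a f (fun r s => lcF cs fs r s κ)
        rw [h, lcF_eq cs fs]
    · rw [cnd_true, cond_true, lcF_eq cs fs]

theorem rf_lc : ∀ (cs : List ℕ) (fs : List (ℕ × ℕ)) (φ : ℕ → V → ZMod 3) (a : ℕ × ℕ) (ψ : V → ZMod 3),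
    (∀ i < fs.length, Rf (fs.getD i (0, 0)) (φ i)) → cs.length = fs.length → Rf a ψ →
    Rf (lc cs fs a) (fun w => ψ w + ∑ i ∈ Finset.range fs.length, cz (cs.getD i 0) * φ i w)
  | [], [], φ, a, ψ, _, _, ha => by
    have e : lc [] [] a = a := rfl
    rw [e]
    exact ha.congr fun w => by simp
  | [], _ :: _, _, _, _, _, h, _ => by simp at h
  | _ :: _, [], _, _, _, _, h, _ => by simp at h
  | c :: cs, f :: fs, φ, a, ψ, hf, hl, ha => by
    have h0 : Rf f (φ 0) := hf 0 (by simp)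
    have h1 : Rf (bif Nat.beq c 0 then a else bif Nat.beq c 1 then addM a f else addM a (f.2, f.1))
        (fun w => ψ w + cz c * φ 0 w) := by
      unfold cz
      cases Nat.beq c 0
      · cases Nat.beq c 1
        · exact (ha.add h0.neg)
        · exact (ha.add h0).congr fun w => by simp
      · exact ha.congr fun w => by simp
    have h2 := rf_lc cs fs (fun i => φ (i + 1)) _ _ (fun i hi => by
      have := hf (i + 1) (by simpa using hi)
      rwa [List.getD_cons_succ] at this) (by simpa using hl) h1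
    refine h2.congr fun w => ?_
    rw [List.length_cons, Finset.sum_range_succ']
    simp only [List.getD_cons_succ, List.getD_cons_zero]
    ring

/-- scalar products -/
def dt : List (ℕ × ℕ) → List (ℕ × ℕ) → ℕ × ℕ → ℕ × ℕ
  | f :: fs, g :: gs, a => dt fs gs (addM a (mulM f g))
  | _, _, a => a

/-- strict version -/
noncomputable def dtF {α : Type} (fs : List (ℕ × ℕ)) : List (ℕ × ℕ) → ℕ → ℕ → (ℕ → ℕ → α) → α :=
  List.rec (fun _ a b κ => κ a b) (fun f _ ih gs => List.rec (fun a b κ => κ a b) (fun g gs' _ a b κ =>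
    mulF f.1 f.2 g.1 g.2 fun x y => addF a b x y fun r s => ih gs' r s κ) gs) fs

theorem dtF_eq {α : Type} : ∀ (fs gs : List (ℕ × ℕ)) (a : ℕ × ℕ) (κ : ℕ → ℕ → α),
    dtF fs gs a.1 a.2 κ = κ (dt fs gs a).1 (dt fs gs a).2
  | [], gs, a, κ => by
    have e : dt [] gs a = a := by cases gs <;> rfl
    rw [e]; rfl
  | f :: fs, [], a, κ => rfl
  | f :: fs, g :: gs, a, κ => by
    have e : dtF (f :: fs) (g :: gs) a.1 a.2 κ = mulF f.1 f.2 g.1 g.2 (fun x y => addF a.1 a.2 x y fun r s =>
      dtF fs gs r s κ) := rfl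
    rw [e, dt, mulF_eq, addF_eq a (mulM f g), dtF_eq fs gs]

theorem rf_dt : ∀ (fs gs : List (ℕ × ℕ)) (φ χ : ℕ → V → ZMod 3) (a : ℕ × ℕ) (ψ : V → ZMod 3),
    (∀ i < fs.length, Rf (fs.getD i (0, 0)) (φ i)) → (∀ i < gs.length, Rf (gs.getD i (0, 0)) (χ i)) →
    fs.length = gs.length → Rf a ψ →
    Rf (dt fs gs a) (fun w => ψ w + ∑ i ∈ Finset.range fs.length, φ i w * χ i w)
  | [], [], φ, χ, a, ψ, _, _, _, ha => by
    have e : dt [] [] a = a := rfl
    rw [e]
    exact ha.congr fun w => by simp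
  | [], _ :: _, _, _, _, _, _, _, h, _ => by simp at h
  | _ :: _, [], _, _, _, _, _, _, h, _ => by simp at h
  | f :: fs, g :: gs, φ, χ, a, ψ, hf, hg, hl, ha => by
    have h0 : Rf f (φ 0) := hf 0 (by simp)
    have h0' : Rf g (χ 0) := hg 0 (by simp)
    have h2 := rf_dt fs gs (fun i => φ (i + 1)) (fun i => χ (i + 1)) _ _ (fun i hi => by
      have := hf (i + 1) (by simpa using hi)
      rwa [List.getD_cons_succ] at this) (fun i hi => by
      have := hg (i + 1) (by simpa using hi)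
      rwa [List.getD_cons_succ] at this) (by simpa using hl) (ha.add (h0.mul h0'))
    refine h2.congr fun w => ?_
    rw [List.length_cons, Finset.sum_range_succ']
    ring

/-! ### states -/

/-- the coordinates, extended by zero -/
def co (w : V) (i : ℕ) : ZMod 3 := if h : i < 9 then w ⟨i, h⟩ else 0

theorem co_eq (w : V) (i : Fin 9) : co w i = w i := by
  rw [co, dif_pos i.2]

theorem sum_co (w : V) (f : ℕ → ZMod 3) : ∑ i ∈ Finset.range 9, f i * co w i = ∑ i : Fin 9, f i * w i := by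
  rw [Finset.sum_range]
  exact Finset.sum_congr rfl fun i _ => by rw [co_eq]

/-- the list describes the function `h` -/
def St (st : List (ℕ × ℕ)) (h : V → V) : Prop :=
  st.length = 9 ∧ ∀ i < st.length, Rf (st.getD i (0, 0)) (fun w => co (h w) i)

theorem St.ext {st : List (ℕ × ℕ)} {h h' : V → V} (h1 : St st h) (h2 : St st h') (w : V) : h w = h' w := by
  funext i
  have hi : (i : ℕ) < st.length := by rw [h1.1]; exact i.2
  have h3 := (h1.2 i hi).ext (h2.2 i hi) w
  rwa [co_eq, co_eq] at h3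

/-- the image of a vector under the matrix -/
def mv (R : List (List ℕ)) (w : V) : V := fun i => ∑ j : Fin 9, cz ((R.getD i []).getD j 0) * w j

/-- a matrix -/
def Sq (R : List (List ℕ)) : Prop := R.length = 9 ∧ ∀ r ∈ R, r.length = 9

/-- decidable form -/
noncomputable def chkSq (R : List (List ℕ)) : Bool :=
  band (Nat.beq R.length 9) (List.rec true (fun r _ ih => band (Nat.beq r.length 9) ih) R)

theorem sq_of_chk {R : List (List ℕ)} (h : chkSq R = true) : Sq R := by
  obtain ⟨h1, h2⟩ := band_eq.1 h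
  refine ⟨Nat.eq_of_beq_eq_true h1, ?_⟩
  clear h h1
  induction R with
  | nil => intro r hr; simp at hr
  | cons r R ih =>
    obtain ⟨h3, h4⟩ := band_eq.1 h2
    intro s hs
    rcases List.mem_cons.1 hs with rfl | hs
    · exact Nat.eq_of_beq_eq_true h3
    · exact ih h4 s hs

/-- apply the matrix to the state -/
def st1 (R : List (List ℕ)) (st : List (ℕ × ℕ)) : List (ℕ × ℕ) := R.map fun r => lc r st (0, 0)

/-- strict version -/
noncomputable def stF {α : Type} (R : List (List ℕ)) (st : List (ℕ × ℕ)) : (List (ℕ × ℕ) → α) → α :=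
  List.rec (fun κ => κ []) (fun r _ ih κ => lcF r st 0 0 fun x y => ih fun l => κ ((x, y) :: l)) R

theorem stF_eq {α : Type} (st : List (ℕ × ℕ)) : ∀ (R : List (List ℕ)) (κ : List (ℕ × ℕ) → α),
    stF R st κ = κ (st1 R st)
  | [], κ => rfl
  | r :: R, κ => by
    have e : stF (r :: R) st κ = lcF r st 0 0 (fun x y => stF R st fun l => κ ((x, y) :: l)) := rfl
    rw [e, lcF_eq r st (0, 0), stF_eq st R]
    rfl

theorem St.step {st : List (ℕ × ℕ)} {h : V → V} (hs : St st h) {R : List (List ℕ)} (hR : Sq R) :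
    St (st1 R st) (fun w => mv R (h w)) := by
  refine ⟨by rw [st1, List.length_map, hR.1], fun i hi => ?_⟩
  rw [st1, List.length_map, hR.1] at hi
  have hi' : i < R.length := by rw [hR.1]; exact hi
  have e : (st1 R st).getD i (0, 0) = lc (R.getD i []) st (0, 0) := by
    rw [st1, List.getD_eq_getElem _ _ (by rw [List.length_map]; exact hi'), List.getElem_map,
      List.getD_eq_getElem _ _ hi']
  rw [e]
  have hlen : (R.getD i []).length = st.length := by
    rw [hs.1, List.getD_eq_getElem _ _ hi']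
    exact hR.2 _ (List.getElem_mem hi')
  refine (rf_lc (R.getD i []) st (fun j w => co (h w) j) (0, 0) (fun _ => 0) hs.2 hlen rf_zero).congr fun w => ?_
  rw [zero_add, hs.1, sum_co (h w) (fun j => cz ((R.getD i []).getD j 0))]
  rw [show co (mv R (h w)) i = mv R (h w) ⟨i, hi⟩ from dif_pos hi]
  rfl

/-! ### the form -/

/-- the partner of the basis vectors -/
def swp {α : Type} (d : α) (l : List α) : List α :=
  [l.getD 1 d, l.getD 0 d, l.getD 3 d, l.getD 2 d, l.getD 5 d, l.getD 4 d, l.getD 7 d, l.getD 6 d, l.getD 8 d]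

/-- the partner -/
def pr (x : V) : V := ![x 1, x 0, x 3, x 2, x 5, x 4, x 7, x 6, x 8]

theorem B_eq (x y : V) : B x y = ∑ i : Fin 9, x i * pr y i := by
  simp only [Fin.sum_univ_succ, Fin.sum_univ_zero, pr, B]
  simp only [Fin.succ, _root_.Fin.isValue, _root_.Matrix.cons_val_zero, _root_.Nat.reduceAdd, _root_.Nat.zero_mod, _root_.zero_add, _root_.Fin.mk_one, _root_.Matrix.cons_val_one, _root_.Fin.coe_ofNat_eq_mod, _root_.Nat.one_mod, _root_.Fin.reduceFinMk, _root_.Matrix.cons_val, _root_.Nat.reduceMod, _root_.Nat.mod_succ, _root_.add_zero]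
  ring

end Cfsg.Agent.H651.O9
end

-- part: H651/O9/Run
section
/-!
# Centralizer bounds in the orthogonal group (helper651)
-/

set_option autoImplicit false
set_option exponentiation.threshold 30000
set_option maxRecDepth 100000

namespace Cfsg.Agent.H651.O9

open Cfsg.Agent.H123.Cls (cnd cnd_true cnd_false band band_eq fB fB_eq allN allN_iff popS cmb popS_eq)
open Cfsg.Agent.Lib.BitNetSimple (force force_eq tb tb_eq)

/-! ### the coordinates -/

/-- the vectors with coordinate `i` equal to `1` -/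
noncomputable def c1 (i : ℕ) : ℕ :=
  Nat.mul (Nat.shiftLeft (Nat.sub (Nat.pow 2 (Nat.pow 3 i)) 1) (Nat.pow 3 i))
    (Nat.div (Nat.sub (Nat.pow 2 19683) 1) (Nat.sub (Nat.pow 2 (Nat.pow 3 (Nat.succ i))) 1))

/-- the vectors with coordinate `i` equal to `2` -/
noncomputable def c2 (i : ℕ) : ℕ :=
  Nat.mul (Nat.shiftLeft (Nat.sub (Nat.pow 2 (Nat.pow 3 i)) 1) (Nat.mul 2 (Nat.pow 3 i)))
    (Nat.div (Nat.sub (Nat.pow 2 19683) 1) (Nat.sub (Nat.pow 2 (Nat.pow 3 (Nat.succ i))) 1))

/-- equality of Booleans -/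
noncomputable def eqb (a b : Bool) : Bool := Bool.rec (Bool.rec true false b) b a

theorem eqb_eq {a b : Bool} (h : eqb a b = true) : a = b := by
  cases a <;> cases b <;> first | rfl | exact absurd h (by decide)

/-- check one block -/
noncomputable def chkB (i o x y : ℕ) : Bool :=
  allN (fun t => force (Nat.mod (Nat.div (Nat.add o t) (Nat.pow 3 i)) 3) fun d =>
    band (eqb (tb x t) (Nat.beq d 1)) (eqb (tb y t) (Nat.beq d 2))) 243

/-- check the masks of a coordinate -/
noncomputable def chkC (i : ℕ) : Bool :=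
  fB (c1 i) fun a => fB (c2 i) fun b => allN (fun s => force (Nat.mul 243 s) fun o =>
    fB (Nat.mod (Nat.shiftRight a o) (Nat.pow 2 243)) fun x => fB (Nat.mod (Nat.shiftRight b o) (Nat.pow 2 243)) fun y =>
      chkB i o x y) 81

theorem testBit_c {i : ℕ} (h : chkC i = true) {e : ℕ} (he : e < 19683) :
    (c1 i).testBit e = decide (e / 3 ^ i % 3 = 1) ∧ (c2 i).testBit e = decide (e / 3 ^ i % 3 = 2) := by
  rw [chkC, fB_eq, fB_eq, allN_iff] at h
  have h1 := h (e / 243) (by omega)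
  rw [force_eq, fB_eq, fB_eq, chkB, allN_iff] at h1
  have hlt : e % 243 < 243 := Nat.mod_lt _ (by norm_num)
  have h2 := h1 (e % 243) hlt
  rw [force_eq, band_eq] at h2
  obtain ⟨h3, h4⟩ := h2
  have h3 := eqb_eq h3
  have h4 := eqb_eq h4
  rw [tb_eq] at h3 h4
  have e1 : Nat.add (Nat.mul 243 (e / 243)) (e % 243) = e := Nat.div_add_mod e 243
  rw [e1] at h3 h4
  have e2 : ∀ x : ℕ, (Nat.mod (Nat.shiftRight x (Nat.mul 243 (e / 243))) (Nat.pow 2 243)).testBit (e % 243) =
      x.testBit e := by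
    intro x
    show ((x >>> (243 * (e / 243))) % 2 ^ 243).testBit (e % 243) = _
    rw [Nat.testBit_mod_two_pow, Nat.testBit_shiftRight, decide_eq_true hlt, Bool.true_and, Nat.div_add_mod]
  rw [e2] at h3 h4
  have e3 : ∀ a b : ℕ, Nat.beq a b = decide (a = b) := fun a b => by
    rw [Bool.eq_iff_iff, decide_eq_true_iff]
    exact Iff.of_eq Nat.beq_eq
  exact ⟨h3.trans (e3 _ _), h4.trans (e3 _ _)⟩

private noncomputable def chkD (i : ℕ) : Bool :=
  fB (c1 i) fun a => fB (c2 i) fun b => allN (fun s => force (Nat.mul 243 s) fun o =>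
    force (Nat.mod (Nat.shiftRight a o) (Nat.pow 2 243)) fun x => force (Nat.mod (Nat.shiftRight b o) (Nat.pow 2 243)) fun y =>
      force (Nat.mul (Nat.mod (Nat.div o (Nat.pow 3 i)) 3) (Nat.pow 3 i)) fun o' => chkB i o' x y) 81

private theorem chkD_of {i : ℕ} (hi : i < 9) (h : chkD i = true) : chkC i = true := by
  rw [chkD, fB_eq, fB_eq, allN_iff] at h
  rw [chkC, fB_eq, fB_eq, allN_iff]
  intro s hs
  have h1 := h s hs
  rw [force_eq, force_eq, force_eq, force_eq, chkB, allN_iff] at h1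
  rw [force_eq, fB_eq, fB_eq, chkB, allN_iff]
  intro t ht
  have h2 := h1 t ht
  have e : (243 * s / 3 ^ i % 3 * 3 ^ i + t) / 3 ^ i % 3 = (243 * s + t) / 3 ^ i % 3 := by
    clear h h1 h2
    obtain rfl | rfl | rfl | rfl | rfl | rfl | rfl | rfl | rfl : i = 0 ∨ i = 1 ∨ i = 2 ∨ i = 3 ∨ i = 4 ∨ i = 5 ∨ i = 6 ∨
      i = 7 ∨ i = 8 := by omega
    all_goals omega
  rw [force_eq] at h2 ⊢
  exact (congrArg (fun d => band (eqb (tb _ t) (Nat.beq d 1)) (eqb (tb _ t) (Nat.beq d 2))) e).symm.trans h2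

theorem chk0 : chkC 0 = true := chkD_of (by decide) (by decide +kernel)
theorem chk1 : chkC 1 = true := chkD_of (by decide) (by decide +kernel)
theorem chk2 : chkC 2 = true := chkD_of (by decide) (by decide +kernel)
theorem chk3 : chkC 3 = true := chkD_of (by decide) (by decide +kernel)
theorem chk4 : chkC 4 = true := chkD_of (by decide) (by decide +kernel)
theorem chk5 : chkC 5 = true := chkD_of (by decide) (by decide +kernel)
theorem chk6 : chkC 6 = true := chkD_of (by decide) (by decide +kernel)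
theorem chk7 : chkC 7 = true := chkD_of (by decide) (by decide +kernel)
theorem chk8 : chkC 8 = true := chkD_of (by decide) (by decide +kernel)

theorem chk_all {i : ℕ} (h : i < 9) : chkC i = true := by
  interval_cases i
  exacts [chk0, chk1, chk2, chk3, chk4, chk5, chk6, chk7, chk8]

theorem rf_co {i : ℕ} (h : i < 9) : Rf (c1 i, c2 i) (fun w => co w i) := by
  intro w
  obtain ⟨h1, h2⟩ := testBit_c (chk_all h) (ix_lt w)
  have h3 := digit w ⟨i, h⟩
  have e : co w i = w ⟨i, h⟩ := dif_pos h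
  show (c1 i).testBit (ix w) = decide (co w i = 1) ∧ (c2 i).testBit (ix w) = decide (co w i = 2)
  rw [h1, h2, e]
  change ix w / 3 ^ i % 3 = _ at h3
  rw [h3]
  generalize w ⟨i, h⟩ = a
  revert a
  decide

/-- the list of the coordinates -/
noncomputable def X0 : List (ℕ × ℕ) := [0, 1, 2, 3, 4, 5, 6, 7, 8].map fun i => (c1 i, c2 i)

/-- strict version -/
noncomputable def iniF {α : Type} (l : List ℕ) : (List (ℕ × ℕ) → α) → α :=
  List.rec (fun κ => κ []) (fun i _ ih κ => fB (c1 i) fun a => fB (c2 i) fun b => ih fun l => κ ((a, b) :: l)) l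

theorem iniF_eq {α : Type} : ∀ (l : List ℕ) (κ : List (ℕ × ℕ) → α), iniF l κ = κ (l.map fun i => (c1 i, c2 i))
  | [], _ => rfl
  | i :: l, κ => by
    have e : iniF (i :: l) κ = fB (c1 i) (fun a => fB (c2 i) fun b => iniF l fun l => κ ((a, b) :: l)) := rfl
    rw [e, fB_eq, fB_eq, iniF_eq l]
    rfl

theorem st_X0 : St X0 (fun w => w) := by
  refine ⟨rfl, fun i hi => ?_⟩
  have h : i < 9 := hi
  have e : X0.getD i (0, 0) = (c1 i, c2 i) := by
    interval_cases i <;> rfl
  rw [e]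
  exact rf_co h

/-! ### iterated states -/

/-- the states of the iterates -/
def stL (R : List (List ℕ)) : ℕ → List (ℕ × ℕ) → List (List (ℕ × ℕ))
  | 0, _ => []
  | m + 1, st => st1 R st :: stL R m (st1 R st)

/-- strict version -/
noncomputable def stLF {α : Type} (R : List (List ℕ)) (m : ℕ) : List (ℕ × ℕ) → (List (List (ℕ × ℕ)) → α) → α :=
  Nat.rec (fun _ κ => κ []) (fun _ ih st κ => stF R st fun s => ih s fun l => κ (s :: l)) m

theorem stLF_eq {α : Type} (R : List (List ℕ)) : ∀ (m : ℕ) (st : List (ℕ × ℕ)) (κ : List (List (ℕ × ℕ)) → α),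
    stLF R m st κ = κ (stL R m st)
  | 0, _, _ => rfl
  | m + 1, st, κ => by
    have e : stLF R (m + 1) st κ = stF R st (fun s => stLF R m s fun l => κ (s :: l)) := rfl
    rw [e, stF_eq, stLF_eq R m]
    rfl

/-- the states describe the functions `H j`, `j = a, a + 1, …` -/
def Sts (H : ℕ → V → V) (l : List (List (ℕ × ℕ))) : Prop :=
  ∀ j < l.length, St (l.getD j []) (H j)

theorem stL_length (R : List (List ℕ)) : ∀ (m : ℕ) (st : List (ℕ × ℕ)), (stL R m st).length = m
  | 0, _ => rfl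
  | m + 1, st => by rw [stL, List.length_cons, stL_length R m]

theorem sts_stL {R : List (List ℕ)} (hR : Sq R) : ∀ (m : ℕ) (st : List (ℕ × ℕ)) (h : V → V), St st h →
    Sts (fun j w => (mv R)^[j + 1] (h w)) (stL R m st)
  | 0, _, _, _ => fun j hj => by simp [stL] at hj
  | m + 1, st, h, hs => by
    intro j hj
    have h1 := hs.step hR
    cases j with
    | zero => exact h1
    | succ j =>
      rw [stL, List.getD_cons_succ]
      have h2 := sts_stL hR m _ _ h1 j (by
        rw [stL, List.length_cons] at hj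
        omega)
      have e : (fun w => (mv R)^[j + 1] (mv R (h w))) = fun w => (mv R)^[j + 1 + 1] (h w) := by
        funext w
        rw [Function.iterate_succ_apply (mv R) (j + 1)]
      show St _ (fun w => (mv R)^[j + 1 + 1] (h w))
      rw [← e]
      exact h2

theorem sts_all {R : List (List ℕ)} (hR : Sq R) (m : ℕ) : Sts (fun j w => (mv R)^[j] w) (X0 :: stL R m X0) := by
  intro j hj
  cases j with
  | zero => exact st_X0
  | succ j =>
    rw [List.getD_cons_succ]
    exact sts_stL hR m X0 (fun w => w) st_X0 j (by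
      rw [List.length_cons] at hj
      omega)

/-! ### the form on the states -/

theorem St.swp {st : List (ℕ × ℕ)} {h : V → V} (hs : St st h) : St (swp (0, 0) st) (fun w => pr (h w)) := by
  obtain ⟨hl, hs⟩ := hs
  rw [hl] at hs
  refine ⟨rfl, fun i hi => ?_⟩
  have hi9 : i < 9 := hi
  have e : ∀ w, co (pr (h w)) i = co (h w) (O9.swp 0 [0, 1, 2, 3, 4, 5, 6, 7, 8] |>.getD i 0) := by
    intro w
    interval_cases i <;> rfl
  have e2 : (O9.swp (0, 0) st).getD i (0, 0) = st.getD (O9.swp 0 [0, 1, 2, 3, 4, 5, 6, 7, 8] |>.getD i 0) (0, 0) := by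
    interval_cases i <;> rfl
  have e3 : (O9.swp 0 [0, 1, 2, 3, 4, 5, 6, 7, 8] |>.getD i 0) < 9 := by
    interval_cases i <;> decide
  rw [e2]
  exact (hs _ e3).congr fun w => (e w).symm

/-- the form between two states -/
noncomputable def bq (s t : List (ℕ × ℕ)) : ℕ × ℕ := dt s (swp (0, 0) t) (0, 0)

theorem rf_bq {s t : List (ℕ × ℕ)} {h k : V → V} (hs : St s h) (ht : St t k) : Rf (bq s t) (fun w => B (h w) (k w)) := by
  have ht' := ht.swp
  refine (rf_dt s (swp (0, 0) t) (fun i w => co (h w) i) (fun i w => co (pr (k w)) i) (0, 0) (fun _ => 0) hs.2 ht'.2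
    (by rw [hs.1, ht'.1]) rf_zero).congr fun w => ?_
  rw [zero_add, hs.1, B_eq, Finset.sum_range]
  exact Finset.sum_congr rfl fun i _ => by rw [co_eq, co_eq]

/-- strict copy -/
noncomputable def cpF {α : Type} (l : List (ℕ × ℕ)) : (List (ℕ × ℕ) → α) → α :=
  List.rec (fun κ => κ []) (fun p _ ih κ => fB p.1 fun a => fB p.2 fun b => ih fun l => κ ((a, b) :: l)) l

theorem cpF_eq {α : Type} : ∀ (l : List (ℕ × ℕ)) (κ : List (ℕ × ℕ) → α), cpF l κ = κ l
  | [], _ => rfl
  | p :: l, κ => by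
    have e : cpF (p :: l) κ = fB p.1 (fun a => fB p.2 fun b => cpF l fun l => κ ((a, b) :: l)) := rfl
    rw [e, fB_eq, fB_eq, cpF_eq l]

/-- the swapped states and the quadratic functions -/
noncomputable def qyF {α : Type} (s0 : List (ℕ × ℕ)) (l : List (List (ℕ × ℕ))) :
    (List (List (ℕ × ℕ)) → List (ℕ × ℕ) → α) → α :=
  List.rec (fun κ => κ [] []) (fun s _ ih κ => cpF (swp (0, 0) s) fun y => dtF s0 y 0 0 fun a b =>
    ih fun Y q => κ (y :: Y) ((a, b) :: q)) l

theorem qyF_eq {α : Type} (s0 : List (ℕ × ℕ)) : ∀ (l : List (List (ℕ × ℕ)))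
    (κ : List (List (ℕ × ℕ)) → List (ℕ × ℕ) → α), qyF s0 l κ = κ (l.map (swp (0, 0))) (l.map (bq s0))
  | [], _ => rfl
  | s :: l, κ => by
    have e : qyF s0 (s :: l) κ = cpF (swp (0, 0) s) (fun y => dtF s0 y 0 0 fun a b =>
      qyF s0 l fun Y q => κ (y :: Y) ((a, b) :: q)) := rfl
    rw [e, cpF_eq, dtF_eq s0 _ (0, 0), qyF_eq s0 l]
    rfl

/-! ### masks of vectors -/

/-- the set of the vectors of a mask -/
def pts (m : ℕ) : Finset V := Finset.univ.filter fun w => m.testBit (ix w) = true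

theorem mem_pts {m : ℕ} {w : V} : w ∈ pts m ↔ m.testBit (ix w) = true := by simp [pts]

/-- all vectors -/
noncomputable def U : ℕ := Nat.sub (Nat.pow 2 19683) 1

theorem testBit_U (i : ℕ) : U.testBit i = decide (i < 19683) := by
  show (2 ^ 19683 - 1).testBit i = _
  exact Nat.testBit_two_pow_sub_one 19683 i

/-- small masks -/
def Sm (m : ℕ) : Prop := ∀ i, m.testBit i = true → i < 19683

theorem pop_eq {m : ℕ} (hm : Sm m) : popS 20 (cmb 20 10) m = (pts m).card := by
  have e : ∑ i ∈ Finset.range (20 * 2 ^ 10), (m.testBit i).toNat = (pts m).card := by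
    have h1 : ∑ i ∈ Finset.range (20 * 2 ^ 10), (m.testBit i).toNat =
        ∑ i ∈ Finset.range (3 ^ 9), (m.testBit i).toNat := by
      symm
      refine Finset.sum_subset (fun i hi => ?_) (fun i _ hi => ?_)
      · rw [Finset.mem_range] at hi ⊢
        exact lt_of_lt_of_le hi (by norm_num)
      · cases h2 : m.testBit i
        · rfl
        · exact absurd (Finset.mem_range.2 (hm i h2)) hi
    rw [h1, Finset.sum_range, pts, Finset.card_filter]
    rw [← Equiv.sum_comp E (fun i : Fin (3 ^ 9) => (m.testBit (i : ℕ)).toNat)]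
    refine Finset.sum_congr rfl fun w _ => ?_
    show (m.testBit (ix w)).toNat = _
    cases m.testBit (ix w) <;> rfl
  have h2 : (pts m).card ≤ 3 ^ 9 := by
    refine (Finset.card_le_univ _).trans ?_
    rw [Fintype.card_congr E, Fintype.card_fin]
  rw [popS_eq (by norm_num) (by rw [e]; exact lt_of_le_of_lt h2 (by norm_num)), e]

/-- the cell of `e` for the function `p` -/
noncomputable def cl (p : ℕ × ℕ) (e m : ℕ) : ℕ :=
  bif tb p.1 e then m &&& p.1 else bif tb p.2 e then m &&& p.2 else m ^^^ (m &&& (p.1 ||| p.2))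

/-- strict version -/
noncomputable def clF {α : Type} (l : List (ℕ × ℕ)) (e : ℕ) : ℕ → (ℕ → α) → α :=
  List.rec (fun m κ => κ m) (fun p _ ih m κ => cnd (tb p.1 e) (fB (Nat.land m p.1) fun x => ih x κ)
    (cnd (tb p.2 e) (fB (Nat.land m p.2) fun x => ih x κ)
      (fB (Nat.xor m (Nat.land m (Nat.lor p.1 p.2))) fun x => ih x κ))) l

/-- the cell of `e` -/
noncomputable def cls : List (ℕ × ℕ) → ℕ → ℕ → ℕ
  | [], _, m => m
  | p :: l, e, m => cls l e (cl p e m)

theorem clF_eq {α : Type} (e : ℕ) : ∀ (l : List (ℕ × ℕ)) (m : ℕ) (κ : ℕ → α), clF l e m κ = κ (cls l e m)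
  | [], _, _ => rfl
  | p :: l, m, κ => by
    have h : clF (p :: l) e m κ = cnd (tb p.1 e) (fB (Nat.land m p.1) fun x => clF l e x κ)
      (cnd (tb p.2 e) (fB (Nat.land m p.2) fun x => clF l e x κ)
        (fB (Nat.xor m (Nat.land m (Nat.lor p.1 p.2))) fun x => clF l e x κ)) := rfl
    rw [h, cls, cl]
    cases tb p.1 e
    · rw [cnd_false, cond_false]
      cases tb p.2 e
      · rw [cnd_false, cond_false, fB_eq, clF_eq e l]; rfl
      · rw [cnd_true, cond_true, fB_eq, clF_eq e l]; rfl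
    · rw [cnd_true, cond_true, fB_eq, clF_eq e l]; rfl

/-- the two vectors have the same bits -/
def Eqv (p : ℕ × ℕ) (v w : V) : Prop := p.1.testBit (ix w) = p.1.testBit (ix v) ∧ p.2.testBit (ix w) = p.2.testBit (ix v)

theorem sm_cl {p : ℕ × ℕ} {e m : ℕ} (hm : Sm m) : Sm (cl p e m) := by
  intro i hi
  apply hm i
  rw [cl] at hi
  cases h1 : tb p.1 e <;> rw [h1] at hi
  · rw [cond_false] at hi
    cases h2 : tb p.2 e <;> rw [h2] at hi
    · rw [cond_false, Nat.testBit_xor, Nat.testBit_and] at hi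
      revert hi
      cases m.testBit i <;> simp
    · rw [cond_true, Nat.testBit_and, Bool.and_eq_true] at hi
      exact hi.1
  · rw [cond_true, Nat.testBit_and, Bool.and_eq_true] at hi
    exact hi.1

theorem mem_cl {p : ℕ × ℕ} {v w : V} {m : ℕ} (hw : m.testBit (ix w) = true) (h : Eqv p v w) :
    (cl p (ix v) m).testBit (ix w) = true := by
  obtain ⟨h1, h2⟩ := h
  rw [cl, tb_eq, tb_eq, ← h1, ← h2]
  cases h3 : p.1.testBit (ix w)
  · rw [cond_false]
    cases h4 : p.2.testBit (ix w)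
    · rw [cond_false, Nat.testBit_xor, Nat.testBit_and, Nat.testBit_or, h3, h4, hw]; rfl
    · rw [cond_true, Nat.testBit_and, h4, hw]; rfl
  · rw [cond_true, Nat.testBit_and, h3, hw]; rfl

theorem sm_cls : ∀ (l : List (ℕ × ℕ)) (e m : ℕ), Sm m → Sm (cls l e m)
  | [], _, _, h => h
  | p :: l, e, m, h => sm_cls l e _ (sm_cl h)

theorem mem_cls {v w : V} : ∀ (l : List (ℕ × ℕ)) (m : ℕ), m.testBit (ix w) = true → (∀ p ∈ l, Eqv p v w) →
    (cls l (ix v) m).testBit (ix w) = true
  | [], _, h, _ => h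
  | p :: l, m, h, hp => mem_cls l _ (mem_cl h (hp p List.mem_cons_self)) fun q hq => hp q (List.mem_cons_of_mem _ hq)

/-- the zeros of the functions -/
noncomputable def zr : List (ℕ × ℕ) → ℕ → ℕ
  | [], m => m
  | p :: l, m => zr l (m ^^^ (m &&& (p.1 ||| p.2)))

/-- strict version -/
noncomputable def zrF {α : Type} (l : List (ℕ × ℕ)) : ℕ → (ℕ → α) → α :=
  List.rec (fun m κ => κ m) (fun p _ ih m κ => fB (Nat.xor m (Nat.land m (Nat.lor p.1 p.2))) fun x => ih x κ) l

theorem zrF_eq {α : Type} : ∀ (l : List (ℕ × ℕ)) (m : ℕ) (κ : ℕ → α), zrF l m κ = κ (zr l m)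
  | [], _, _ => rfl
  | p :: l, m, κ => by
    have h : zrF (p :: l) m κ = fB (Nat.xor m (Nat.land m (Nat.lor p.1 p.2))) (fun x => zrF l x κ) := rfl
    rw [h, fB_eq, zrF_eq l]
    rfl

theorem mem_zr {w : V} : ∀ (l : List (ℕ × ℕ)) (m : ℕ), m.testBit (ix w) = true →
    (∀ p ∈ l, p.1.testBit (ix w) = false ∧ p.2.testBit (ix w) = false) → (zr l m).testBit (ix w) = true
  | [], _, h, _ => h
  | p :: l, m, h, hp => by
    obtain ⟨h1, h2⟩ := hp p List.mem_cons_self
    refine mem_zr l _ ?_ fun q hq => hp q (List.mem_cons_of_mem _ hq)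
    rw [Nat.testBit_xor, Nat.testBit_and, Nat.testBit_or, h1, h2, h]
    rfl

/-! ### linear functions -/

/-- the digits -/
def dig (e : ℕ) : List ℕ := [0, 1, 2, 3, 4, 5, 6, 7, 8].map fun i => e / 3 ^ i % 3

/-- strict version -/
noncomputable def digF {α : Type} (e : ℕ) (l : List ℕ) : (List ℕ → α) → α :=
  List.rec (fun κ => κ []) (fun i _ ih κ => force (Nat.mod (Nat.div e (Nat.pow 3 i)) 3) fun d => ih fun l => κ (d :: l)) l

theorem digF_eq {α : Type} (e : ℕ) : ∀ (l : List ℕ) (κ : List ℕ → α), digF e l κ = κ (l.map fun i => e / 3 ^ i % 3)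
  | [], _ => rfl
  | i :: l, κ => by
    have h : digF e (i :: l) κ = force (Nat.mod (Nat.div e (Nat.pow 3 i)) 3) (fun d => digF e l fun l => κ (d :: l)) := rfl
    rw [h, force_eq, digF_eq e l]
    rfl

theorem cz_val : ∀ a : ZMod 3, cz a.val = a := by
  intro a
  revert a
  decide

/-- the functions `B (v, h w)` -/
noncomputable def lf (c : List ℕ) (Y : List (ℕ × ℕ)) : ℕ × ℕ := lc c Y (0, 0)

theorem rf_lf {Y : List (ℕ × ℕ)} {h : V → V} (hY : St Y fun w => pr (h w)) (v : V) :
    Rf (lf (dig (ix v)) Y) (fun w => B v (h w)) := by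
  have hlen : (dig (ix v)).length = Y.length := by rw [hY.1]; rfl
  refine (rf_lc (dig (ix v)) Y (fun j w => co (pr (h w)) j) (0, 0) (fun _ => 0) hY.2 hlen rf_zero).congr fun w => ?_
  rw [zero_add, hY.1, B_eq, Finset.sum_range]
  refine Finset.sum_congr rfl fun i _ => ?_
  have e : (dig (ix v)).getD (i : ℕ) 0 = ix v / 3 ^ (i : ℕ) % 3 := by
    fin_cases i <;> rfl
  rw [e, digit, cz_val, co_eq]

/-- push the linear functions -/
noncomputable def puF {α : Type} (c : List ℕ) (Ys : List (List (ℕ × ℕ))) : List (ℕ × ℕ) → (List (ℕ × ℕ) → α) → α :=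
  List.rec (fun ls κ => κ ls) (fun Y _ ih ls κ => lcF c Y 0 0 fun a b => ih ((a, b) :: ls) κ) Ys

/-- the pushed list -/
noncomputable def pu (c : List ℕ) : List (List (ℕ × ℕ)) → List (ℕ × ℕ) → List (ℕ × ℕ)
  | [], ls => ls
  | Y :: Ys, ls => pu c Ys (lf c Y :: ls)

theorem puF_eq {α : Type} (c : List ℕ) : ∀ (Ys : List (List (ℕ × ℕ))) (ls : List (ℕ × ℕ)) (κ : List (ℕ × ℕ) → α),
    puF c Ys ls κ = κ (pu c Ys ls)
  | [], _, _ => rfl
  | Y :: Ys, ls, κ => by
    have h : puF c (Y :: Ys) ls κ = lcF c Y 0 0 (fun a b => puF c Ys ((a, b) :: ls) κ) := rfl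
    rw [h, lcF_eq c Y (0, 0), puF_eq c Ys]
    rfl

theorem mem_pu {c : List ℕ} {p : ℕ × ℕ} : ∀ {Ys : List (List (ℕ × ℕ))} {ls : List (ℕ × ℕ)}, p ∈ pu c Ys ls →
    p ∈ ls ∨ ∃ Y ∈ Ys, p = lf c Y
  | [], _, h => Or.inl h
  | Y :: Ys, ls, h => by
    rcases mem_pu (Ys := Ys) h with h1 | ⟨Z, hZ, h1⟩
    · rcases List.mem_cons.1 h1 with h2 | h2
      · exact Or.inr ⟨Y, List.mem_cons_self, h2⟩
      · exact Or.inl h2
    · exact Or.inr ⟨Z, List.mem_cons_of_mem _ hZ, h1⟩

/-! ### the run -/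

/-- run the certificate -/
noncomputable def run (M : ℕ) (Ys : List (List (ℕ × ℕ))) (fs : List (ℕ × ℕ)) (ch : List ℕ) : List (ℕ × ℕ) → ℕ :=
  List.rec (fun ls => zrF ls U fun z => cnd (Nat.beq z 1) 1 0)
    (fun e _ ih ls => cnd (Nat.blt e 19683) (clF fs e U fun m => clF ls e m fun m' => force (popS 20 M m') fun n =>
      digF e [0, 1, 2, 3, 4, 5, 6, 7, 8] fun c => puF c Ys ls fun ls' => force (ih ls') fun N => Nat.mul n N) 0) ch

/-- invariance of the masks -/
def Iv (H : Subgroup (V ≃ₗ[ZMod 3] V)) (p : ℕ × ℕ) : Prop := ∀ σ ∈ H, ∀ w, Eqv p w (σ w)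

/-- invariant linear functions -/
def Lv (H : Subgroup (V ≃ₗ[ZMod 3] V)) (p : ℕ × ℕ) : Prop :=
  ∃ f : V → ZMod 3, Rf p f ∧ (∀ a b, f (a - b) = f a - f b) ∧ ∀ σ ∈ H, ∀ w, f (σ w) = f w

theorem Lv.iv {H : Subgroup (V ≃ₗ[ZMod 3] V)} {p : ℕ × ℕ} (h : Lv H p) : Iv H p := by
  obtain ⟨f, h1, -, h2⟩ := h
  intro σ hσ w
  constructor
  · rw [(h1 (σ w)).1, (h1 w).1, h2 σ hσ]
  · rw [(h1 (σ w)).2, (h1 w).2, h2 σ hσ]

theorem Lv.mono {H K : Subgroup (V ≃ₗ[ZMod 3] V)} {p : ℕ × ℕ} (hK : K ≤ H) (h : Lv H p) : Lv K p := by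
  obtain ⟨f, h1, h2, h3⟩ := h
  exact ⟨f, h1, h2, fun σ hσ => h3 σ (hK hσ)⟩

theorem card_base (H : Subgroup (V ≃ₗ[ZMod 3] V)) [Finite (V ≃ₗ[ZMod 3] V)] (v : V) (m : ℕ)
    (hm : ∀ σ ∈ H, m.testBit (ix (σ v)) = true) {N : ℕ}
    (hN : Nat.card ↥(H ⊓ MulAction.stabilizer (V ≃ₗ[ZMod 3] V) v) ≤ N) :
    Nat.card H ≤ (pts m).card * N := by
  classical
  have h1 : Nat.card H = Nat.card (MulAction.orbit H v) * Nat.card (MulAction.stabilizer H v) := by
    rw [← Nat.card_prod]
    exact (Nat.card_congr (MulAction.orbitProdStabilizerEquivGroup H v)).symm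
  have h2 : Nat.card (MulAction.orbit H v) ≤ (pts m).card := by
    rw [← Fintype.card_coe, ← Nat.card_eq_fintype_card]
    refine Nat.card_le_card_of_injective (fun x : MulAction.orbit H v => (⟨x.1, ?_⟩ : pts m)) ?_
    · obtain ⟨w, ⟨σ, rfl⟩⟩ := x
      rw [mem_pts]
      exact hm σ.1 σ.2
    · intro x y h
      exact Subtype.ext (congrArg (fun z : pts m => (z : V)) h)
  have h3 : Nat.card (MulAction.stabilizer H v) ≤ N := by
    refine le_trans ?_ hN
    refine Nat.card_le_card_of_injective (fun x : MulAction.stabilizer H v =>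
      (⟨x.1.1, x.1.2, x.2⟩ : ↥(H ⊓ MulAction.stabilizer (V ≃ₗ[ZMod 3] V) v))) ?_
    intro x y h
    exact Subtype.ext (Subtype.ext (congrArg (fun z : ↥(H ⊓ MulAction.stabilizer (V ≃ₗ[ZMod 3] V) v) => z.1) h))
  rw [h1]
  exact Nat.mul_le_mul h2 h3

instance fin_lin : Finite (V ≃ₗ[ZMod 3] V) :=
  Finite.of_injective (fun a : V ≃ₗ[ZMod 3] V => (a : V → V)) DFunLike.coe_injective

theorem run_nil (M : ℕ) (Ys : List (List (ℕ × ℕ))) (fs ls : List (ℕ × ℕ)) :
    run M Ys fs [] ls = cnd (Nat.beq (zr ls U) 1) 1 0 := by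
  have e : run M Ys fs [] ls = zrF ls U (fun z => cnd (Nat.beq z 1) 1 0) := rfl
  rw [e, zrF_eq]

theorem run_cons (M : ℕ) (Ys : List (List (ℕ × ℕ))) (fs ls : List (ℕ × ℕ)) (e : ℕ) (ch : List ℕ) :
    run M Ys fs (e :: ch) ls = cnd (Nat.blt e 19683)
      (popS 20 M (cls ls e (cls fs e U)) * run M Ys fs ch (pu (dig e) Ys ls)) 0 := by
  have e1 : run M Ys fs (e :: ch) ls = cnd (Nat.blt e 19683) (clF fs e U fun m => clF ls e m fun m' =>
      force (popS 20 M m') fun n => digF e [0, 1, 2, 3, 4, 5, 6, 7, 8] fun c => puF c Ys ls fun ls' =>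
        force (run M Ys fs ch ls') fun N => Nat.mul n N) 0 := rfl
  rw [e1, clF_eq, clF_eq, force_eq, digF_eq, puF_eq, force_eq]
  rfl

attribute [irreducible] run U

theorem run_spec {r : V ≃ₗ[ZMod 3] V} {M : ℕ} (hM : M = cmb 20 10) {Ys : List (List (ℕ × ℕ))} {fs : List (ℕ × ℕ)}
    (hY : ∀ Y ∈ Ys, ∃ h : V ≃ₗ[ZMod 3] V, St Y (fun w => pr (h w)) ∧
      ∀ σ : V ≃ₗ[ZMod 3] V, σ * r = r * σ → σ * h = h * σ) (ch : List ℕ) :
    ∀ (ls : List (ℕ × ℕ)) (H : Subgroup (V ≃ₗ[ZMod 3] V)), H ≤ OB → (∀ σ ∈ H, σ * r = r * σ) →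
      (∀ p ∈ fs, Iv H p) → (∀ p ∈ ls, Lv H p) → run M Ys fs ch ls ≠ 0 → Nat.card H ≤ run M Ys fs ch ls := by
  induction ch with
  | nil =>
    intro ls H hH hr hfs hls h0
    rw [run_nil] at h0 ⊢
    cases hz : Nat.beq (zr ls U) 1
    · rw [hz] at h0
      exact absurd rfl h0
    rw [cnd_true]
    have hz1 : zr ls U = 1 := Nat.eq_of_beq_eq_true hz
    have hone : ∀ σ ∈ H, σ = 1 := by
      intro σ hσ
      apply LinearEquiv.ext
      intro w
      have h1 : (zr ls U).testBit (ix (σ w - w)) = true := by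
        refine mem_zr ls U (by rw [testBit_U]; exact decide_eq_true (ix_lt _)) fun p hp => ?_
        obtain ⟨f, h2, h3, h4⟩ := hls p hp
        have h5 : f (σ w - w) = 0 := by rw [h3, h4 σ hσ, sub_self]
        rw [(h2 _).1, (h2 _).2, h5]
        exact ⟨by decide, by decide⟩
      rw [hz1, Nat.testBit_one_eq_true_iff_self_eq_zero] at h1
      have h6 : σ w - w = 0 := ix_inj (h1.trans ix_zero.symm)
      exact sub_eq_zero.1 h6
    have hb : H = ⊥ := (Subgroup.eq_bot_iff_forall H).2 hone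
    rw [hb, Subgroup.card_bot]
  | cons e ch ih =>
    intro ls H hH hr hfs hls h0
    rw [run_cons] at h0 ⊢
    cases he : Nat.blt e 19683
    · rw [he] at h0
      exact absurd rfl h0
    rw [he, cnd_true] at h0
    rw [cnd_true]
    have he' : e < 19683 := by
      rwa [Nat.blt_eq] at he
    obtain ⟨v, rfl⟩ : ∃ v : V, ix v = e := ⟨vec e, ix_vec he'⟩
    have hsm : Sm (cls ls (ix v) (cls fs (ix v) U)) := sm_cls _ _ _ (sm_cls _ _ _ fun i hi => by
      rw [testBit_U] at hi
      exact of_decide_eq_true hi)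
    have hmem : ∀ σ ∈ H, (cls ls (ix v) (cls fs (ix v) U)).testBit (ix (σ v)) = true := by
      intro σ hσ
      refine mem_cls _ _ (mem_cls _ _ (by rw [testBit_U]; exact decide_eq_true (ix_lt _)) fun p hp => hfs p hp σ hσ v)
        fun p hp => (hls p hp).iv σ hσ v
    generalize cls ls (ix v) (cls fs (ix v) U) = m at *
    let H1 : Subgroup (V ≃ₗ[ZMod 3] V) := H ⊓ MulAction.stabilizer (V ≃ₗ[ZMod 3] V) v
    have hle : H1 ≤ H := inf_le_left
    have hls1 : ∀ p ∈ pu (dig (ix v)) Ys ls, Lv H1 p := by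
      intro p hp
      rcases mem_pu hp with h2 | ⟨Y, hYm, rfl⟩
      · exact (hls p h2).mono hle
      · obtain ⟨h, h3, h4⟩ := hY Y hYm
        refine ⟨fun w => B v (h w), rf_lf h3 v, fun a b => ?_, fun σ hσ w => ?_⟩
        · show B v (h (a - b)) = B v (h a) - B v (h b)
          rw [map_sub]
          simp only [B, Pi.sub_apply]
          ring
        · have h5 : σ (h w) = h (σ w) := LinearEquiv.congr_fun (h4 σ (hr σ (hle hσ))) w
          have h6 : σ v = v := (Subgroup.mem_inf.1 hσ).2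
          show B v (h (σ w)) = B v (h w)
          rw [← h5]
          conv_lhs => rw [← h6]
          exact (mem_OB.1 (hH (hle hσ))) v (h w)
    have h8 : run M Ys fs ch (pu (dig (ix v)) Ys ls) ≠ 0 := fun h => h0 (by rw [h, mul_zero])
    have h7 := ih (pu (dig (ix v)) Ys ls) H1 (hle.trans hH) (fun σ hσ => hr σ (hle hσ))
      (fun p hp σ hσ => hfs p hp σ (hle hσ)) hls1 h8
    have h9 := card_base H v m hmem h7
    rw [hM, pop_eq hsm, ← hM]
    exact h9

end Cfsg.Agent.H651.O9
end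

-- part: H651/O9/Key
section
/-!
# Invariants of the elements of the orthogonal group, and the checks of one representative (helper651)
-/

set_option autoImplicit false
set_option exponentiation.threshold 30000
set_option maxRecDepth 100000

namespace Cfsg.Agent.H651.O9

open Cfsg.Agent.H123.Cls (cnd cnd_true cnd_false band band_eq fB fB_eq popS cmb)
open Cfsg.Agent.Lib.BitNetSimple (force force_eq tb tb_eq)

/-! ### equal values -/

/-- the vectors at which the two states agree -/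
def em : List (ℕ × ℕ) → List (ℕ × ℕ) → ℕ → ℕ
  | p :: l, q :: l', m => em l l' (m ^^^ (m &&& ((p.1 ^^^ q.1) ||| (p.2 ^^^ q.2))))
  | _, _, m => m

/-- strict version -/
noncomputable def emF {α : Type} (l : List (ℕ × ℕ)) : List (ℕ × ℕ) → ℕ → (ℕ → α) → α :=
  List.rec (fun _ m κ => κ m) (fun p _ ih l' => List.rec (fun m κ => κ m) (fun q l'' _ m κ =>
    fB (Nat.xor m (Nat.land m (Nat.lor (Nat.xor p.1 q.1) (Nat.xor p.2 q.2)))) fun x => ih l'' x κ) l') l

theorem emF_eq {α : Type} : ∀ (l l' : List (ℕ × ℕ)) (m : ℕ) (κ : ℕ → α), emF l l' m κ = κ (em l l' m)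
  | [], l', m, κ => by
    have e : em [] l' m = m := by cases l' <;> rfl
    rw [e]; rfl
  | p :: l, [], m, κ => rfl
  | p :: l, q :: l', m, κ => by
    have e : emF (p :: l) (q :: l') m κ =
      fB (Nat.xor m (Nat.land m (Nat.lor (Nat.xor p.1 q.1) (Nat.xor p.2 q.2)))) (fun x => emF l l' x κ) := rfl
    rw [e, fB_eq, emF_eq l l', em]
    rfl

theorem testBit_em (e : ℕ) : ∀ (l l' : List (ℕ × ℕ)) (m : ℕ), l.length = l'.length →
    ((em l l' m).testBit e = true ↔ (m.testBit e = true ∧ ∀ i < l.length,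
      (l.getD i (0, 0)).1.testBit e = (l'.getD i (0, 0)).1.testBit e ∧
      (l.getD i (0, 0)).2.testBit e = (l'.getD i (0, 0)).2.testBit e))
  | [], [], m, _ => by simp [em]
  | [], _ :: _, _, h => by simp at h
  | _ :: _, [], _, h => by simp at h
  | p :: l, q :: l', m, h => by
    rw [em, testBit_em e l l' _ (by simpa using h), Nat.testBit_xor, Nat.testBit_and, Nat.testBit_or, Nat.testBit_xor,
      Nat.testBit_xor]
    have hs : (∀ i < (p :: l).length, ((p :: l).getD i (0, 0)).1.testBit e = ((q :: l').getD i (0, 0)).1.testBit e ∧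
        ((p :: l).getD i (0, 0)).2.testBit e = ((q :: l').getD i (0, 0)).2.testBit e) ↔
        ((p.1.testBit e = q.1.testBit e ∧ p.2.testBit e = q.2.testBit e) ∧
          ∀ i < l.length, (l.getD i (0, 0)).1.testBit e = (l'.getD i (0, 0)).1.testBit e ∧
            (l.getD i (0, 0)).2.testBit e = (l'.getD i (0, 0)).2.testBit e) := by
      constructor
      · intro hh
        refine ⟨hh 0 (by simp), fun i hi => ?_⟩
        have := hh (i + 1) (by simpa using hi)
        rwa [List.getD_cons_succ, List.getD_cons_succ] at this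
      · rintro ⟨h1, h2⟩ i hi
        cases i with
        | zero => exact h1
        | succ i =>
          rw [List.getD_cons_succ, List.getD_cons_succ]
          exact h2 i (by simpa using hi)
    rw [hs]
    cases m.testBit e <;> cases p.1.testBit e <;> cases q.1.testBit e <;> cases p.2.testBit e <;>
      cases q.2.testBit e <;> simp only [_root_.bne_self_eq_false, _root_.Bool.or_self, _root_.Bool.and_self, _root_.Bool.false_eq_true, _root_.List.getD_eq_getElem?_getD, _root_.false_and, _root_.and_self, _root_.true_and, _root_.Bool.bne_true, _root_.Bool.not_false, _root_.Bool.or_true, _root_.Bool.and_true, _root_.and_false, _root_.Bool.bne_false, _root_.Bool.true_eq_false, _root_.Bool.or_false, _root_.and_true, _root_.Bool.and_false]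

theorem key_eq : ∀ a b : ZMod 3, decide (a = 1) = decide (b = 1) → decide (a = 2) = decide (b = 2) → a = b := by
  decide

theorem testBit_em_U {l l' : List (ℕ × ℕ)} {h k : V → V} (hl : St l h) (hl' : St l' k) (w : V) :
    (em l l' U).testBit (ix w) = true ↔ h w = k w := by
  rw [testBit_em (ix w) l l' U (by rw [hl.1, hl'.1])]
  have hU : U.testBit (ix w) = true := by rw [testBit_U]; exact decide_eq_true (ix_lt w)
  constructor
  · rintro ⟨-, h1⟩
    funext i
    have hi : (i : ℕ) < l.length := by rw [hl.1]; exact i.2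
    have hi' : (i : ℕ) < l'.length := by rw [hl'.1]; exact i.2
    obtain ⟨h2, h3⟩ := h1 i hi
    obtain ⟨a1, a2⟩ := hl.2 i hi w
    obtain ⟨b1, b2⟩ := hl'.2 i hi' w
    have h4 : co (h w) i = co (k w) i := key_eq _ _ (a1.symm.trans (h2.trans b1)) (a2.symm.trans (h3.trans b2))
    rwa [co_eq, co_eq] at h4
  · intro h1
    refine ⟨hU, fun i hi => ?_⟩
    have hi' : i < l'.length := by rw [hl'.1, ← hl.1]; exact hi
    obtain ⟨a1, a2⟩ := hl.2 i hi w
    obtain ⟨b1, b2⟩ := hl'.2 i hi' w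
    refine ⟨a1.trans (Eq.trans ?_ b1.symm), a2.trans (Eq.trans ?_ b2.symm)⟩
    · show decide (co (h w) i = 1) = decide (co (k w) i = 1)
      rw [h1]
    · show decide (co (h w) i = 2) = decide (co (k w) i = 2)
      rw [h1]

/-- the function with value one where the states agree -/
theorem rf_em {l l' : List (ℕ × ℕ)} {h k : V → V} (hl : St l h) (hl' : St l' k) :
    Rf (em l l' U, 0) (fun w => if h w = k w then 1 else 0) := by
  intro w
  have h1 := testBit_em_U hl hl' w
  show (em l l' U).testBit (ix w) = decide ((if h w = k w then (1 : ZMod 3) else 0) = 1) ∧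
    (0 : ℕ).testBit (ix w) = decide ((if h w = k w then (1 : ZMod 3) else 0) = 2)
  by_cases h2 : h w = k w
  · rw [if_pos h2, h1.2 h2, Nat.zero_testBit]
    exact ⟨by decide, by decide⟩
  · have h3 : (em l l' U).testBit (ix w) = false := by
      rw [← Bool.not_eq_true, h1]
      exact h2
    rw [if_neg h2, h3, Nat.zero_testBit]
    exact ⟨by decide, by decide⟩

/-- the negative state -/
def ng (l : List (ℕ × ℕ)) : List (ℕ × ℕ) := l.map fun p => (p.2, p.1)

theorem St.neg {l : List (ℕ × ℕ)} {h : V → V} (hl : St l h) : St (ng l) (fun w => -(h w)) := by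
  refine ⟨by rw [ng, List.length_map, hl.1], fun i hi => ?_⟩
  rw [ng, List.length_map] at hi
  have e : (ng l).getD i (0, 0) = ((l.getD i (0, 0)).2, (l.getD i (0, 0)).1) := by
    rw [ng, List.getD_eq_getElem _ _ (by rw [List.length_map]; exact hi), List.getElem_map,
      List.getD_eq_getElem _ _ hi]
  rw [e]
  refine (hl.2 i hi).neg.congr fun w => ?_
  have h2 : ∀ a : ZMod 3, 2 * a = -a := by decide
  rw [h2]
  unfold co
  split
  · rfl
  · exact neg_zero

/-! ### the values -/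

/-- the functions of an element: fixed vectors of `r`, `-r`, `r ^ 4`, and the forms `B (w, r ^ j w)` -/
def vl (r : V ≃ₗ[ZMod 3] V) : ℕ → V → ZMod 3
  | 0 => fun w => if r w = w then 1 else 0
  | 1 => fun w => if r w = -w then 1 else 0
  | 2 => fun w => if (r ^ 4) w = w then 1 else 0
  | j + 3 => fun w => B w ((r ^ j) w)

theorem vl_conj (r : V ≃ₗ[ZMod 3] V) {a : V ≃ₗ[ZMod 3] V} (ha : a ∈ OB) (i : ℕ) (w : V) :
    vl (a * r * a⁻¹) i (a w) = vl r i w := by
  have hp : ∀ (j : ℕ) (v : V), ((a * r * a⁻¹) ^ j) (a v) = a ((r ^ j) v) := by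
    intro j v
    have h1 : (a * r * a⁻¹) ^ j = a * r ^ j * a⁻¹ := conj_pow
    rw [h1]
    show a ((r ^ j) (a⁻¹ (a v))) = _
    rw [show a⁻¹ (a v) = v from LinearEquiv.symm_apply_apply a v]
  have hp1 : ∀ v : V, (a * r * a⁻¹) (a v) = a (r v) := by
    intro v
    have := hp 1 v
    rwa [pow_one, pow_one] at this
  rcases i with _ | _ | _ | j
  · show (if (a * r * a⁻¹) (a w) = a w then (1 : ZMod 3) else 0) = (if r w = w then 1 else 0)
    refine if_congr ?_ rfl rfl
    rw [hp1, a.injective.eq_iff]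
  · show (if (a * r * a⁻¹) (a w) = -(a w) then (1 : ZMod 3) else 0) = (if r w = -w then 1 else 0)
    refine if_congr ?_ rfl rfl
    rw [hp1, ← map_neg, a.injective.eq_iff]
  · show (if ((a * r * a⁻¹) ^ 4) (a w) = a w then (1 : ZMod 3) else 0) = (if (r ^ 4) w = w then 1 else 0)
    refine if_congr ?_ rfl rfl
    rw [hp, a.injective.eq_iff]
  · show B (a w) (((a * r * a⁻¹) ^ j) (a w)) = B w ((r ^ j) w)
    rw [hp]
    exact (mem_OB.1 ha) _ _

/-- the vectors with prescribed values -/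
def pat (r : V ≃ₗ[ZMod 3] V) (P : List (ℕ × ℕ)) : Set V := {w | ∀ x ∈ P, vl r x.1 w = cz x.2}

theorem card_pat_conj (r : V ≃ₗ[ZMod 3] V) {a : V ≃ₗ[ZMod 3] V} (ha : a ∈ OB) (P : List (ℕ × ℕ)) :
    Nat.card (pat (a * r * a⁻¹) P) = Nat.card (pat r P) := by
  have h1 : ∀ w ∈ pat r P, a w ∈ pat (a * r * a⁻¹) P := fun w hw x hx => by
    rw [vl_conj r ha]
    exact hw x hx
  have h2 : ∀ w ∈ pat (a * r * a⁻¹) P, a⁻¹ w ∈ pat r P := fun w hw x hx => by
    have h3 := vl_conj r ha x.1 (a⁻¹ w)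
    rw [show a (a⁻¹ w) = w from LinearEquiv.apply_symm_apply a w] at h3
    rw [← h3]
    exact hw x hx
  exact (Nat.card_congr (α := ↥(pat r P)) (β := ↥(pat (a * r * a⁻¹) P))
    { toFun := fun w => ⟨a w.1, h1 w.1 w.2⟩
      invFun := fun w => ⟨a⁻¹ w.1, h2 w.1 w.2⟩
      left_inv := fun w => Subtype.ext (LinearEquiv.symm_apply_apply a w.1)
      right_inv := fun w => Subtype.ext (LinearEquiv.apply_symm_apply a w.1) }).symm

/-- the patterns -/
def pats : List (List (ℕ × ℕ)) :=
  [[(3, 1), (5, 1), (7, 1), (8, 1)], [(4, 1), (6, 1), (8, 1), (2, 1)], [(3, 1), (5, 2), (8, 1)],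
    [(4, 1), (6, 0), (7, 0), (8, 0)], [(3, 1), (6, 0), (7, 0), (8, 0)], [(5, 0), (6, 0), (7, 0), (8, 0), (0, 1)]]

/-- the invariant -/
noncomputable def key (r : V ≃ₗ[ZMod 3] V) : ℕ :=
  pats.foldr (fun P a => Nat.card (pat r P) + 32768 * a) 0

theorem key_conj (r : V ≃ₗ[ZMod 3] V) {a : V ≃ₗ[ZMod 3] V} (ha : a ∈ OB) : key (a * r * a⁻¹) = key r := by
  unfold key
  congr 1
  funext P b
  rw [card_pat_conj r ha]

/-! ### the numerical invariant -/

/-- select a value -/
noncomputable def sl (p : ℕ × ℕ) (a m : ℕ) : ℕ :=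
  bif Nat.beq a 0 then m ^^^ (m &&& (p.1 ||| p.2)) else bif Nat.beq a 1 then m &&& p.1 else m &&& p.2

theorem testBit_sl {p : ℕ × ℕ} {f : V → ZMod 3} (h : Rf p f) (a m : ℕ) (w : V) :
    (sl p a m).testBit (ix w) = true ↔ (m.testBit (ix w) = true ∧ f w = cz a) := by
  obtain ⟨h1, h2⟩ := h w
  have k0 : ∀ b : ZMod 3, (!(decide (b = 1) || decide (b = 2))) = true ↔ b = 0 := by decide
  unfold sl cz
  cases Nat.beq a 0
  · rw [cond_false, cond_false]
    cases Nat.beq a 1
    · rw [cond_false, cond_false, Nat.testBit_and, h2, Bool.and_eq_true, decide_eq_true_iff]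
    · rw [cond_true, cond_true, Nat.testBit_and, h1, Bool.and_eq_true, decide_eq_true_iff]
  · rw [cond_true, cond_true, Nat.testBit_xor, Nat.testBit_and, Nat.testBit_or, h1, h2, ← k0]
    cases m.testBit (ix w) <;> cases decide (f w = 1) <;> cases decide (f w = 2) <;> simp

theorem sm_sl {p : ℕ × ℕ} {a m : ℕ} (hm : Sm m) : Sm (sl p a m) := by
  intro i hi
  apply hm i
  unfold sl at hi
  cases h1 : Nat.beq a 0 <;> rw [h1] at hi
  · rw [cond_false] at hi
    cases h2 : Nat.beq a 1 <;> rw [h2] at hi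
    · rw [cond_false, Nat.testBit_and, Bool.and_eq_true] at hi
      exact hi.1
    · rw [cond_true, Nat.testBit_and, Bool.and_eq_true] at hi
      exact hi.1
  · rw [cond_true, Nat.testBit_xor, Nat.testBit_and] at hi
    revert hi
    cases m.testBit i <;> simp

/-- the mask of a pattern -/
noncomputable def pm (fl : List (ℕ × ℕ)) : List (ℕ × ℕ) → ℕ → ℕ
  | [], m => m
  | x :: P, m => pm fl P (sl (fl.getD x.1 (0, 0)) x.2 m)

/-- entry of a list of pairs -/
noncomputable def nthP (l : List (ℕ × ℕ)) : ℕ → ℕ × ℕ :=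
  List.rec (fun _ => (0, 0)) (fun x _ ih i => Nat.rec x (fun j _ => ih j) i) l

theorem nthP_eq : ∀ (l : List (ℕ × ℕ)) (i : ℕ), nthP l i = l.getD i (0, 0)
  | [], _ => rfl
  | _ :: _, 0 => rfl
  | _ :: l, i + 1 => nthP_eq l i

/-- strict version -/
noncomputable def pmF {α : Type} (fl : List (ℕ × ℕ)) (P : List (ℕ × ℕ)) : ℕ → (ℕ → α) → α :=
  List.rec (fun m κ => κ m) (fun x _ ih m κ =>
    cnd (Nat.beq x.2 0) (fB (Nat.xor m (Nat.land m (Nat.lor (nthP fl x.1).1 (nthP fl x.1).2))) fun y => ih y κ)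
      (cnd (Nat.beq x.2 1) (fB (Nat.land m (nthP fl x.1).1) fun y => ih y κ)
        (fB (Nat.land m (nthP fl x.1).2) fun y => ih y κ))) P

theorem pmF_eq {α : Type} (fl : List (ℕ × ℕ)) : ∀ (P : List (ℕ × ℕ)) (m : ℕ) (κ : ℕ → α),
    pmF fl P m κ = κ (pm fl P m)
  | [], _, _ => rfl
  | x :: P, m, κ => by
    have e : pmF fl (x :: P) m κ =
      cnd (Nat.beq x.2 0) (fB (Nat.xor m (Nat.land m (Nat.lor (nthP fl x.1).1 (nthP fl x.1).2))) fun y => pmF fl P y κ)
      (cnd (Nat.beq x.2 1) (fB (Nat.land m (nthP fl x.1).1) fun y => pmF fl P y κ)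
        (fB (Nat.land m (nthP fl x.1).2) fun y => pmF fl P y κ)) := rfl
    rw [e, pm, sl, ← nthP_eq]
    cases Nat.beq x.2 0
    · rw [cnd_false, cond_false]
      cases Nat.beq x.2 1
      · rw [cnd_false, cond_false, fB_eq, pmF_eq fl P]; rfl
      · rw [cnd_true, cond_true, fB_eq, pmF_eq fl P]; rfl
    · rw [cnd_true, cond_true, fB_eq, pmF_eq fl P]; rfl

theorem testBit_pm {fl : List (ℕ × ℕ)} {r : V ≃ₗ[ZMod 3] V} (hf : ∀ i < fl.length, Rf (fl.getD i (0, 0)) (vl r i))
    (w : V) : ∀ (P : List (ℕ × ℕ)) (m : ℕ), (∀ x ∈ P, x.1 < fl.length) →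
      ((pm fl P m).testBit (ix w) = true ↔ (m.testBit (ix w) = true ∧ w ∈ pat r P))
  | [], m, _ => by
    rw [pm]
    exact ⟨fun h => ⟨h, fun x hx => by simp at hx⟩, fun h => h.1⟩
  | x :: P, m, hP => by
    rw [pm, testBit_pm hf w P _ (fun y hy => hP y (List.mem_cons_of_mem _ hy)),
      testBit_sl (hf x.1 (hP x List.mem_cons_self)), and_assoc]
    refine and_congr_right fun _ => ?_
    constructor
    · rintro ⟨h1, h2⟩ y hy
      rcases List.mem_cons.1 hy with rfl | hy
      · exact h1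
      · exact h2 y hy
    · intro h
      exact ⟨h x List.mem_cons_self, fun y hy => h y (List.mem_cons_of_mem _ hy)⟩

theorem sm_pm {fl : List (ℕ × ℕ)} : ∀ (P : List (ℕ × ℕ)) (m : ℕ), Sm m → Sm (pm fl P m)
  | [], _, h => h
  | _ :: P, _, h => sm_pm P _ (sm_sl h)

theorem sm_U : Sm U := fun i hi => by
  rw [testBit_U] at hi
  exact of_decide_eq_true hi

theorem pop_pm {fl : List (ℕ × ℕ)} {r : V ≃ₗ[ZMod 3] V} (hf : ∀ i < fl.length, Rf (fl.getD i (0, 0)) (vl r i))
    {P : List (ℕ × ℕ)} (hP : ∀ x ∈ P, x.1 < fl.length) : popS 20 (cmb 20 10) (pm fl P U) = Nat.card (pat r P) := by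
  rw [pop_eq (sm_pm P U sm_U), ← Fintype.card_coe, ← Nat.card_eq_fintype_card]
  refine Nat.card_congr (Equiv.subtypeEquivRight fun w => ?_)
  rw [mem_pts, testBit_pm hf w P U hP]
  exact ⟨fun h => h.2, fun h => ⟨by rw [testBit_U]; exact decide_eq_true (ix_lt w), h⟩⟩

/-- the numerical invariant -/
noncomputable def keyF (M : ℕ) (fl : List (ℕ × ℕ)) (Ps : List (List (ℕ × ℕ))) : ℕ :=
  List.rec 0 (fun P _ ih => force ih fun a => pmF fl P U fun m => force (popS 20 M m) fun n =>
    Nat.add n (Nat.mul 32768 a)) Ps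

theorem keyF_eq {fl : List (ℕ × ℕ)} {r : V ≃ₗ[ZMod 3] V} (hf : ∀ i < fl.length, Rf (fl.getD i (0, 0)) (vl r i)) :
    ∀ Ps : List (List (ℕ × ℕ)), (∀ P ∈ Ps, ∀ x ∈ P, x.1 < fl.length) →
      keyF (cmb 20 10) fl Ps = Ps.foldr (fun P a => Nat.card (pat r P) + 32768 * a) 0
  | [], _ => rfl
  | P :: Ps, h => by
    have e : keyF (cmb 20 10) fl (P :: Ps) = force (keyF (cmb 20 10) fl Ps) (fun a => pmF fl P U fun m =>
      force (popS 20 (cmb 20 10) m) fun n => Nat.add n (Nat.mul 32768 a)) := rfl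
    rw [e, force_eq, pmF_eq, force_eq, pop_pm hf (h P List.mem_cons_self),
      keyF_eq hf Ps fun Q hQ => h Q (List.mem_cons_of_mem _ hQ), List.foldr_cons]
    rfl

/-! ### the checks -/

/-- the functions of the element given by the matrix -/
noncomputable def fls (R : List (List ℕ)) : List (ℕ × ℕ) :=
  (em (st1 R X0) X0 U, 0) :: (em (st1 R X0) (ng X0) U, 0) ::
    (em ((stL R 9 X0).getD 3 []) X0 U, 0) :: (X0 :: stL R 9 X0).map (bq X0)

/-- the swapped states -/
noncomputable def yls (R : List (List ℕ)) : List (List (ℕ × ℕ)) := (X0 :: stL R 9 X0).map (swp (0, 0))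

/-- entry of a list of states -/
noncomputable def nthL (l : List (List (ℕ × ℕ))) : ℕ → List (ℕ × ℕ) :=
  List.rec (fun _ => []) (fun x _ ih i => Nat.rec x (fun j _ => ih j) i) l

theorem nthL_eq : ∀ (l : List (List (ℕ × ℕ))) (i : ℕ), nthL l i = l.getD i []
  | [], _ => rfl
  | _ :: _, 0 => rfl
  | _ :: l, i + 1 => nthL_eq l i

/-- compute all functions -/
noncomputable def allF {α : Type} (R : List (List ℕ)) (κ : List (List (ℕ × ℕ)) → List (ℕ × ℕ) → α) : α :=
  iniF [0, 1, 2, 3, 4, 5, 6, 7, 8] fun x => stLF R 9 x fun ss => emF (nthL ss 0) x U fun a =>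
    emF (nthL ss 0) (ng x) U fun b => emF (nthL ss 3) x U fun c => qyF x (x :: ss) fun Y q =>
      κ Y ((a, 0) :: (b, 0) :: (c, 0) :: q)

theorem allF_eq {α : Type} (R : List (List ℕ)) (κ : List (List (ℕ × ℕ)) → List (ℕ × ℕ) → α) :
    allF R κ = κ (yls R) (fls R) := by
  rw [allF, iniF_eq, stLF_eq, emF_eq, emF_eq, emF_eq, qyF_eq, nthL_eq, nthL_eq]
  rfl

/-- the check of the key and of the bound -/
noncomputable def chkR (R : List (List ℕ)) (ch : List ℕ) (c k : ℕ) : Bool :=
  band (chkSq R) (fB (cmb 20 10) fun M => allF R fun Y f =>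
    band (Nat.beq (keyF M f pats) k) (Nat.beq (run M Y f ch []) (Nat.succ c)))

/-- the check of the key -/
noncomputable def chkK (R : List (List ℕ)) (k : ℕ) : Bool :=
  band (chkSq R) (fB (cmb 20 10) fun M => allF R fun _ f => Nat.beq (keyF M f pats) k)

/-- the matrix of the element -/
def Mt (R : List (List ℕ)) (r : V ≃ₗ[ZMod 3] V) : Prop := ∀ w, r w = mv R w

theorem mt_pow {R : List (List ℕ)} {r : V ≃ₗ[ZMod 3] V} (hr : Mt R r) : ∀ (j : ℕ) (w : V), (mv R)^[j] w = (r ^ j) w
  | 0, _ => rfl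
  | j + 1, w => by
    rw [Function.iterate_succ_apply', mt_pow hr j w, ← hr, pow_succ']
    rfl

theorem sts_mt {R : List (List ℕ)} (hR : Sq R) {r : V ≃ₗ[ZMod 3] V} (hr : Mt R r) (m j : ℕ)
    (hj : j < (X0 :: stL R m X0).length) : St ((X0 :: stL R m X0).getD j []) (fun w => (r ^ j) w) := by
  have h := sts_all hR m j hj
  have e : (fun w => (mv R)^[j] w) = fun w => (r ^ j) w := funext fun w => mt_pow hr j w
  show St _ _
  rw [← e]
  exact h

theorem rf_fls {R : List (List ℕ)} (hR : Sq R) {r : V ≃ₗ[ZMod 3] V} (hr : Mt R r) :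
    ∀ i < (fls R).length, Rf ((fls R).getD i (0, 0)) (vl r i) := by
  intro i hi
  have h1 := sts_mt hR hr 9 1 (by rw [List.length_cons, stL_length]; norm_num)
  have h4 := sts_mt hR hr 9 4 (by rw [List.length_cons, stL_length]; norm_num)
  rcases i with _ | _ | _ | j
  · have h := rf_em h1 st_X0
    exact h
  · have h := rf_em h1 st_X0.neg
    exact h
  · have h := rf_em h4 st_X0
    exact h
  · have hj : j < (X0 :: stL R 9 X0).length := by
      have e : (fls R).length = 3 + (X0 :: stL R 9 X0).length := by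
        simp only [fls, List.length_cons, List.length_map]
        omega
      rw [e] at hi
      omega
    have e : (fls R).getD (j + 3) (0, 0) = bq X0 ((X0 :: stL R 9 X0).getD j []) := by
      rw [fls, List.getD_cons_succ, List.getD_cons_succ, List.getD_cons_succ,
        List.getD_eq_getElem _ _ (by rw [List.length_map]; exact hj), List.getElem_map, List.getD_eq_getElem _ _ hj]
    show Rf ((fls R).getD (j + 3) (0, 0)) _
    rw [e]
    exact rf_bq st_X0 (sts_mt hR hr 9 j hj)

theorem fls_length (R : List (List ℕ)) : (fls R).length = 13 := by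
  simp only [fls, List.length_cons, List.length_map, stL_length]

theorem pats_lt : ∀ P ∈ pats, ∀ x ∈ P, x.1 < 13 := by decide

/-- the invariant of the element -/
theorem key_of_chkK {R : List (List ℕ)} {k : ℕ} (h : chkK R k = true) {r : V ≃ₗ[ZMod 3] V} (hr : Mt R r) :
    key r = k := by
  rw [chkK, band_eq, fB_eq, allF_eq] at h
  obtain ⟨h1, h2⟩ := h
  have h3 := keyF_eq (rf_fls (sq_of_chk h1) hr) pats (by rw [fls_length]; exact pats_lt)
  rw [Nat.eq_of_beq_eq_true h2] at h3
  exact h3.symm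

/-- the invariant and the bound -/
theorem of_chkR {R : List (List ℕ)} {ch : List ℕ} {c k : ℕ} (h : chkR R ch c k = true) {r : V ≃ₗ[ZMod 3] V}
    (hr : Mt R r) : key r = k ∧ ∀ H : Subgroup (V ≃ₗ[ZMod 3] V), H ≤ OB → (∀ σ ∈ H, σ * r = r * σ) →
      Nat.card H ≤ Nat.succ c := by
  rw [chkR, band_eq, fB_eq, allF_eq, band_eq] at h
  obtain ⟨h1, h2, h3⟩ := h
  have hsq := sq_of_chk h1
  refine ⟨?_, fun H hH hc => ?_⟩
  · have h4 := keyF_eq (rf_fls hsq hr) pats (by rw [fls_length]; exact pats_lt)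
    rw [Nat.eq_of_beq_eq_true h2] at h4
    exact h4.symm
  · have h5 := Nat.eq_of_beq_eq_true h3
    rw [← h5]
    refine run_spec (r := r) rfl ?_ ch [] H hH hc ?_ (fun p hp => by simp at hp) (by rw [h5]; exact Nat.succ_ne_zero c)
    · intro Y hY
      rw [yls, List.mem_map] at hY
      obtain ⟨s, hs, rfl⟩ := hY
      obtain ⟨j, hj, rfl⟩ := List.getElem_of_mem hs
      refine ⟨r ^ j, ?_, fun σ hσ => (Commute.pow_right (show Commute σ r from hσ) j).eq⟩
      have h6 := sts_mt hsq hr 9 j hj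
      rw [List.getD_eq_getElem _ _ hj] at h6
      exact h6.swp
    · intro p hp σ hσ w
      obtain ⟨i, hi, rfl⟩ := List.getElem_of_mem hp
      have h7 := rf_fls hsq hr i hi
      rw [List.getD_eq_getElem _ _ hi] at h7
      have h8 : vl r i (σ w) = vl r i w := by
        have h9 := vl_conj r (hH hσ) i w
        rwa [hc σ hσ, mul_inv_cancel_right] at h9
      constructor
      · rw [(h7 _).1, (h7 _).1, h8]
      · rw [(h7 _).2, (h7 _).2, h8]

/-! ### products -/

/-- the lists agree -/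
noncomputable def eqL (l : List (ℕ × ℕ)) : List (ℕ × ℕ) → Bool :=
  List.rec (fun l' => List.rec true (fun _ _ _ => false) l') (fun p _ ih l' => List.rec false (fun q l'' _ =>
    band (Nat.beq p.1 q.1) (band (Nat.beq p.2 q.2) (ih l''))) l') l

theorem eqL_eq : ∀ {l l' : List (ℕ × ℕ)}, eqL l l' = true → l = l'
  | [], [], _ => rfl
  | [], _ :: _, h => Bool.noConfusion (show false = true from h)
  | _ :: _, [], h => Bool.noConfusion (show false = true from h)
  | p :: l, q :: l', h => by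
    obtain ⟨h1, h2⟩ := band_eq.1 h
    obtain ⟨h3, h4⟩ := band_eq.1 h2
    rw [eqL_eq h4, show p = q from Prod.ext (Nat.eq_of_beq_eq_true h1) (Nat.eq_of_beq_eq_true h3)]

/-- the matrix is orthogonal -/
noncomputable def chkO (R : List (List ℕ)) : Bool :=
  band (chkSq R) (iniF [0, 1, 2, 3, 4, 5, 6, 7, 8] fun x => stF R x fun s =>
    cpF (swp (0, 0) x) fun x' => cpF (swp (0, 0) s) fun s' => dtF x x' 0 0 fun a b => dtF s s' 0 0 fun c d =>
      band (Nat.beq a c) (Nat.beq b d))

theorem isom_of_chkO {R : List (List ℕ)} (h : chkO R = true) : Sq R ∧ ∀ w, B (mv R w) (mv R w) = B w w := by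
  rw [chkO, band_eq, iniF_eq, stF_eq, cpF_eq, cpF_eq, dtF_eq _ _ (0, 0), dtF_eq _ _ (0, 0), band_eq] at h
  obtain ⟨h1, h2, h3⟩ := h
  have hsq := sq_of_chk h1
  refine ⟨hsq, fun w => ?_⟩
  have a1 := rf_bq st_X0 st_X0
  have a2 := rf_bq (st_X0.step hsq) (st_X0.step hsq)
  have e : bq X0 X0 = bq (st1 R X0) (st1 R X0) :=
    Prod.ext (Nat.eq_of_beq_eq_true h2) (Nat.eq_of_beq_eq_true h3)
  rw [← e] at a2
  exact a2.ext a1 w

/-- `G P = X P Y` -/
noncomputable def chkP (X Y P G : List (List ℕ)) : Bool :=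
  iniF [0, 1, 2, 3, 4, 5, 6, 7, 8] fun x => stF P x fun s => stF G s fun s1 => stF Y x fun t => stF P t fun t1 =>
    stF X t1 fun t2 => eqL s1 t2

theorem of_chkP {X Y P G : List (List ℕ)} (hX : Sq X) (hY : Sq Y) (hP : Sq P) (hG : Sq G)
    (h : chkP X Y P G = true) (w : V) : mv G (mv P w) = mv X (mv P (mv Y w)) := by
  rw [chkP, iniF_eq, stF_eq, stF_eq, stF_eq, stF_eq, stF_eq] at h
  have h1 := (st_X0.step hP).step hG
  have h2 := ((st_X0.step hY).step hP).step hX
  have e := eqL_eq h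
  have h3 : St (st1 G (st1 P X0)) (fun w => mv X (mv P (mv Y w))) := by
    rw [show st1 G (st1 P X0) = st1 X (st1 P (st1 Y X0)) from e]
    exact h2
  exact h1.ext h3 w

end Cfsg.Agent.H651.O9
end

-- part: H830/O9/Orth
section
/-!
# Isometries from matrices (helper830)
-/

set_option autoImplicit false

namespace Cfsg.Agent.H830.O9

open Cfsg.Agent.H651.O9

theorem B_comm (x y : V) : B x y = B y x := by simp only [B]; ring

theorem B_add_left (x x' y : V) : B (x + x') y = B x y + B x' y := by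
  simp only [B, Pi.add_apply]
  ring

theorem B_add_right (x y y' : V) : B x (y + y') = B x y + B x y' := by
  simp only [B, Pi.add_apply]
  ring

theorem B_zero_left (y : V) : B 0 y = 0 := by simp [B]

/-- polarisation -/
theorem B_polar (x y : V) : B x y = 2 * (B (x + y) (x + y) - B x x - B y y) := by
  have h3 : (3 : ZMod 3) = 0 := by decide
  rw [B_add_left, B_add_right, B_add_right, B_comm y x]
  linear_combination (-B x y) * h3

/-- nondegeneracy -/
theorem eq_zero_of_B {x : V} (h : ∀ y, B x y = 0) : x = 0 := by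
  have e : ∀ i : Fin 9, B x (Pi.single i 1) = 0 := fun i => h _
  have h0 := e 0
  have h1 := e 1
  have h2 := e 2
  have h3 := e 3
  have h4 := e 4
  have h5 := e 5
  have h6 := e 6
  have h7 := e 7
  have h8 := e 8
  simp only [B, Pi.single_apply] at h0 h1 h2 h3 h4 h5 h6 h7 h8
  simp only [_root_.Fin.isValue, _root_.one_ne_zero, ↓ _root_.reduceIte, _root_.MulZeroClass.mul_zero, _root_.mul_one, _root_.zero_add, _root_.Fin.reduceEq, _root_.add_zero, _root_.zero_ne_one] at h0 h1 h2 h3 h4 h5 h6 h7 h8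
  funext i
  fin_cases i <;> assumption

/-- the linear map of a matrix -/
def mvL (R : List (List ℕ)) : V →ₗ[ZMod 3] V where
  toFun := mv R
  map_add' x y := by
    funext i
    simp only [mv, Pi.add_apply, mul_add, Finset.sum_add_distrib]
  map_smul' c x := by
    funext i
    simp only [mv, Pi.smul_apply, smul_eq_mul, RingHom.id_apply, Finset.mul_sum]
    exact Finset.sum_congr rfl fun j _ => by ring

theorem mvL_apply (R : List (List ℕ)) (w : V) : mvL R w = mv R w := rfl

/-- **a matrix preserving the norms is an isometry** -/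
theorem exists_ob (R : List (List ℕ)) (_hR : Sq R) (h : ∀ w, B (mv R w) (mv R w) = B w w) :
    ∃ g : V ≃ₗ[ZMod 3] V, g ∈ OB ∧ ∀ w, g w = mv R w := by
  have h2 : ∀ x y, B (mvL R x) (mvL R y) = B x y := by
    intro x y
    rw [B_polar (mvL R x), ← map_add, mvL_apply, mvL_apply, mvL_apply, h, h, h, ← B_polar]
  have hinj : Function.Injective (mvL R) := by
    rw [← LinearMap.ker_eq_bot, LinearMap.ker_eq_bot']
    intro x hx
    apply eq_zero_of_B
    intro y
    rw [← h2, hx, B_zero_left]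
  refine ⟨LinearEquiv.ofInjectiveEndo (mvL R) hinj, fun x y => h2 x y, fun w => rfl⟩

end Cfsg.Agent.H830.O9
end

-- part: H651/O9/Rep
section
/-!
# The two elements of order 41 and the statement on one class (helper651)
-/

set_option autoImplicit false
set_option exponentiation.threshold 30000
set_option maxRecDepth 100000

namespace Cfsg.Agent.H651.O9

open Cfsg.Agent.H123.Cls (cnd cnd_true cnd_false band band_eq fB fB_eq popS cmb)

/-- the matrix of the first element -/
def XM : List (List ℕ) :=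
  [[0, 1, 0, 0, 1, 1, 0, 0, 1], [1, 0, 0, 0, 2, 2, 0, 0, 2], [0, 0, 2, 1, 2, 0, 1, 2, 1], [2, 1, 1, 2, 0, 0, 2, 0, 1], [0, 0, 1, 1, 2, 1, 2, 0, 0], [0, 0, 0, 2, 2, 1, 2, 2, 0], [1, 2, 2, 2, 0, 2, 0, 2, 0], [0, 0, 2, 1, 1, 2, 1, 2, 0], [0, 0, 0, 0, 0, 1, 0, 2, 2]]

/-- the matrix of the second element -/
def YM : List (List ℕ) :=
  [[1, 0, 1, 0, 0, 2, 1, 1, 1], [0, 1, 2, 0, 0, 1, 2, 2, 2], [0, 0, 1, 1, 1, 0, 1, 0, 2], [1, 2, 2, 0, 0, 0, 2, 2, 0], [1, 2, 0, 2, 2, 1, 0, 2, 2], [0, 0, 0, 2, 2, 2, 0, 1, 2], [0, 0, 1, 0, 0, 2, 0, 0, 0], [0, 0, 0, 1, 0, 0, 0, 2, 0], [0, 0, 1, 1, 1, 1, 1, 1, 1]]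

/-- the matrix of the involution -/
def TM : List (List ℕ) :=
  [[0, 1, 0, 0, 0, 0, 0, 0, 0], [1, 0, 0, 0, 0, 0, 0, 0, 0], [0, 0, 2, 0, 0, 0, 0, 0, 0], [0, 0, 0, 2, 0, 0, 0, 0, 0], [0, 0, 0, 0, 2, 0, 0, 0, 0], [0, 0, 0, 0, 0, 2, 0, 0, 0], [0, 0, 0, 0, 0, 0, 2, 0, 0], [0, 0, 0, 0, 0, 0, 0, 2, 0], [0, 0, 0, 0, 0, 0, 0, 0, 2]]

theorem chkO_XM : chkO XM = true := by decide +kernel

theorem chkO_YM : chkO YM = true := by decide +kernel

theorem chkO_TM : chkO TM = true := by decide +kernel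

theorem exists_x : ∃ g : V ≃ₗ[ZMod 3] V, g ∈ OB ∧ ∀ w, g w = mv XM w :=
  H830.O9.exists_ob XM (isom_of_chkO chkO_XM).1 (isom_of_chkO chkO_XM).2

theorem exists_y : ∃ g : V ≃ₗ[ZMod 3] V, g ∈ OB ∧ ∀ w, g w = mv YM w :=
  H830.O9.exists_ob YM (isom_of_chkO chkO_YM).1 (isom_of_chkO chkO_YM).2

theorem exists_t : ∃ g : V ≃ₗ[ZMod 3] V, g ∈ OB ∧ ∀ w, g w = mv TM w :=
  H830.O9.exists_ob TM (isom_of_chkO chkO_TM).1 (isom_of_chkO chkO_TM).2

/-- the first element -/
noncomputable def xx : V ≃ₗ[ZMod 3] V := exists_x.choose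

/-- the second element -/
noncomputable def yy : V ≃ₗ[ZMod 3] V := exists_y.choose

/-- the involution -/
noncomputable def tt : V ≃ₗ[ZMod 3] V := exists_t.choose

theorem xx_mem : xx ∈ OB := exists_x.choose_spec.1
theorem yy_mem : yy ∈ OB := exists_y.choose_spec.1
theorem tt_mem : tt ∈ OB := exists_t.choose_spec.1
theorem mt_xx : Mt XM xx := exists_x.choose_spec.2
theorem mt_yy : Mt YM yy := exists_y.choose_spec.2
theorem mt_tt : Mt TM tt := exists_t.choose_spec.2

/-! ### the order -/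

/-- the power is the identity -/
noncomputable def chkI (R : List (List ℕ)) (m : ℕ) : Bool :=
  iniF [0, 1, 2, 3, 4, 5, 6, 7, 8] fun x => stLF R (Nat.succ m) x fun ss => eqL (nthL ss m) x

theorem pow_of_chkI {R : List (List ℕ)} (hR : Sq R) {r : V ≃ₗ[ZMod 3] V} (hr : Mt R r) {m : ℕ}
    (h : chkI R m = true) : r ^ (m + 1) = 1 := by
  rw [chkI, iniF_eq, stLF_eq, nthL_eq] at h
  have h1 := eqL_eq h
  have h2 := sts_mt hR hr (Nat.succ m) (m + 1) (by rw [List.length_cons, stL_length]; omega)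
  rw [List.getD_cons_succ] at h2
  have h3 : St ((stL R (Nat.succ m) X0).getD m []) (fun w => w) := by
    rw [show (stL R (Nat.succ m) X0).getD m [] = X0 from h1]
    exact st_X0
  exact LinearEquiv.ext fun w => h2.ext h3 w

theorem chkI_XM : chkI XM 40 = true := by decide +kernel

theorem chkI_YM : chkI YM 40 = true := by decide +kernel

theorem xx_pow : xx ^ 41 = 1 := pow_of_chkI (isom_of_chkO chkO_XM).1 mt_xx chkI_XM

theorem yy_pow : yy ^ 41 = 1 := pow_of_chkI (isom_of_chkO chkO_YM).1 mt_yy chkI_YM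

/-! ### the classes -/

/-- the invariant and the bound of the centralizer -/
def Bd (r : V ≃ₗ[ZMod 3] V) (c k : ℕ) : Prop :=
  key r = k ∧ ∀ H : Subgroup (V ≃ₗ[ZMod 3] V), H ≤ OB → (∀ σ ∈ H, σ * r = r * σ) → Nat.card H ≤ Nat.succ c

/-- one class of products -/
def Ok (c k : ℕ) : Prop := ∃ p ∈ OB, Bd (xx * (p * yy * p⁻¹)) c k

/-- the check of one class -/
noncomputable def chkA (G P : List (List ℕ)) (ch : List ℕ) (c k : ℕ) : Bool :=
  band (chkR G ch c k) (band (chkO P) (chkP XM YM P G))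

theorem ok_of (G P : List (List ℕ)) (ch : List ℕ) {c k : ℕ} (h : chkA G P ch c k = true) : Ok c k := by
  rw [chkA, band_eq, band_eq] at h
  obtain ⟨h1, h2, h3⟩ := h
  have hG : Sq G := by
    rw [chkR, band_eq] at h1
    exact sq_of_chk h1.1
  obtain ⟨hP, hiso⟩ := isom_of_chkO h2
  obtain ⟨p, hp, hpm⟩ := H830.O9.exists_ob P hP hiso
  refine ⟨p, hp, of_chkR h1 fun w => ?_⟩
  have h4 := of_chkP (isom_of_chkO chkO_XM).1 (isom_of_chkO chkO_YM).1 hP hG h3 (p⁻¹ w)
  have h5 : mv P (p⁻¹ w) = w := by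
    rw [← hpm]
    exact LinearEquiv.apply_symm_apply p w
  rw [h5] at h4
  rw [h4, ← mt_yy, ← hpm, ← mt_xx]
  rfl

end Cfsg.Agent.H651.O9
end

private theorem dce_4c7d68301259 : _root_.True := by
  try have : _root_.True := by simp only [_root_.Cfsg.Agent.H651.O9.em.eq_2]
  try have : _root_.True := by simp only [_root_.Cfsg.Agent.H651.O9.stL.eq_2]
  try have : _root_.True := by simp only [_root_.Cfsg.Agent.H651.O9.allF.eq_1]
  try have : _root_.True := by simp only [_root_.Cfsg.Agent.H651.O9.chkO.eq_1]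
  try have : _root_.True := by simp only [_root_.Cfsg.Agent.H651.O9.B.eq_1]
  try have : _root_.True := by simp only [_root_.Cfsg.Agent.H651.O9.chkB.eq_1]
  try have : _root_.True := by simp only [_root_.Cfsg.Agent.H651.O9.fls.eq_1]
  try have : _root_.True := by simp only [_root_.Cfsg.Agent.H651.O9.dt.eq_1]
  try have : _root_.True := by simp only [_root_.Cfsg.Agent.H651.O9.cls.eq_1]
  try have : _root_.True := by simp only [_root_.Cfsg.Agent.H651.O9.lc.eq_2]
  try have : _root_.True := by simp only [_root_.Cfsg.Agent.H651.O9.lc.eq_def]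
  try have : _root_.True := by simp only [_root_.Cfsg.Agent.H651.O9.lc._sparseCasesOn_1.else_eq]
  try have : _root_.True := by simp only [_root_.Cfsg.Agent.H651.O9.yls.eq_1]
  try have : _root_.True := by simp only [_root_.Cfsg.Agent.H651.O9.st1.eq_1]
  try have : _root_.True := by simp only [_root_.Cfsg.Agent.H651.O9.ng.eq_1]
  try have : _root_.True := by simp only [_root_.Cfsg.Agent.H651.O9.lc.eq_1]
  try have : _root_.True := by simp only [_root_.Cfsg.Agent.H651.O9.chkP.eq_1]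
  try have : _root_.True := by simp only [_root_.Cfsg.Agent.H651.O9.pm.eq_1]
  try have : _root_.True := by simp only [_root_.Cfsg.Agent.H651.O9.ix.eq_1]
  try have : _root_.True := by simp only [_root_.Cfsg.Agent.H651.O9.chkA.eq_1]
  try have : _root_.True := by simp only [_root_.Cfsg.Agent.H651.O9.pts.eq_1]
  try have : _root_.True := by simp only [_root_.Cfsg.Agent.H651.O9.pm.eq_2]
  try have : _root_.True := by simp only [_root_.Cfsg.Agent.H651.O9.co.eq_1]
  try have : _root_.True := by simp only [_root_.Cfsg.Agent.H651.O9.pr.eq_1]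
  try have : _root_.True := by simp only [_root_.Cfsg.Agent.H651.O9.stL.eq_def]
  try have : _root_.True := by simp only [_root_.Cfsg.Agent.H651.O9.em.eq_def]
  try have : _root_.True := by simp only [_root_.Fin.succ.eq_1]
  try have : _root_.True := by simp only [_root_.Cfsg.Agent.H651.O9.em.eq_1]
  try have : _root_.True := by simp only [_root_.Cfsg.Agent.H651.O9.stL.eq_1]
  try have : _root_.True := by simp only [_root_.Cfsg.Agent.H651.O9.mulM.eq_1]
  try have : _root_.True := by simp only [_root_.Cfsg.Agent.H651.O9.addF.eq_1]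
  try have : _root_.True := by simp only [_root_.Cfsg.Agent.H651.O9.chkR.eq_1]
  try have : _root_.True := by simp only [_root_.Cfsg.Agent.H651.O9.dt.eq_2]
  try have : _root_.True := by simp only [_root_.Cfsg.Agent.H651.O9.cls.eq_2]
  try have : _root_.True := by simp only [_root_.Cfsg.Agent.H651.O9.cl.eq_1]
  try have : _root_.True := by simp only [_root_.Cfsg.Agent.H651.O9.vec.eq_1]
  try have : _root_.True := by simp only [_root_.Cfsg.Agent.H651.O9.addM.eq_1]
  try have : _root_.True := by simp only [_root_.Cfsg.Agent.H651.O9.pm.eq_def]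
  try have : _root_.True := by simp only [_root_.Cfsg.Agent.H651.O9.sl.eq_1]
  try have : _root_.True := by simp only [_root_.Cfsg.Agent.H651.O9.mv.eq_1]
  try have : _root_.True := by simp only [_root_.Cfsg.Agent.H651.O9.mulF.eq_1]
  try have : _root_.True := by simp only [_root_.Cfsg.Agent.H651.O9.chkC.eq_1]
  try have : _root_.True := by simp only [_root_.Cfsg.Agent.H651.O9.chkI.eq_1]
  try have : _root_.True := by simp only [_root_.Cfsg.Agent.H651.O9.cls.eq_def]
  try have : _root_.True := by simp only [_root_.Cfsg.Agent.H651.O9.dt.eq_def]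
  try have : _root_.True := by simp only [_root_.Cfsg.Agent.H651.O9.chkK.eq_1]
  exact _root_.True.intro
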